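import Mathlib

/-!
# Counting vectors along the subspaces covering a subspace

`cn D A B` is the number of vectors of `B` outside `A` satisfying `D`; `cov A B` is the set of the subspaces
`A ⊔ ⟨v⟩` with `v ∈ B`, `v ∉ A`.
-/

set_option autoImplicit false
set_option linter.unusedSectionVars false

namespace Cfsg.Agent.H87.Cov

open Finset Submodule Module

variable {F V : Type*} [Field F] [Fintype F] [AddCommGroup V] [Module F V] [Fintype V]

open Classical in
/-- number of vectors of `B`, outside `A`, with the property `D`. -/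
noncomputable def cn (D : V → Prop) (A B : Submodule F V) : ℕ :=
  (univ.filter fun v : V => v ∈ B ∧ v ∉ A ∧ D v).card

open Classical in
/-- the subspaces `A ⊔ ⟨v⟩` of `B` covering `A`. -/
noncomputable def cov (A B : Submodule F V) : Finset (Submodule F V) :=
  (univ.filter fun v : V => v ∈ B ∧ v ∉ A).image fun v => A ⊔ span F {v}

theorem sup_span_eq {A : Submodule F V} {v w : V} (hw : w ∈ A ⊔ span F {v}) (hwA : w ∉ A) :
    A ⊔ span F {w} = A ⊔ span F {v} := by
  apply le_antisymm
  · exact sup_le le_sup_left (by rw [span_singleton_le_iff_mem]; exact hw)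
  · refine sup_le le_sup_left ?_
    rw [span_singleton_le_iff_mem]
    obtain ⟨a, ha, b, hb, rfl⟩ := mem_sup.1 hw
    obtain ⟨c, rfl⟩ := mem_span_singleton.1 hb
    have hc : c ≠ 0 := by
      rintro rfl
      apply hwA
      rw [zero_smul, add_zero]
      exact ha
    have h1 : c⁻¹ • ((a + c • v) - a) = v := by
      rw [add_sub_cancel_left, smul_smul, inv_mul_cancel₀ hc, one_smul]
    have h2 : c⁻¹ • ((a + c • v) - a) ∈ A ⊔ span F {a + c • v} := by
      apply smul_mem
      exact sub_mem (mem_sup_right (mem_span_singleton_self _)) (mem_sup_left ha)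
    rwa [h1] at h2

theorem finrank_sup_span {A : Submodule F V} {v : V} (hv : v ∉ A) :
    finrank F ↥(A ⊔ span F {v}) = finrank F A + 1 := by
  have h0 : v ≠ 0 := by
    rintro rfl
    exact hv (zero_mem _)
  have h1 := finrank_sup_add_finrank_inf_eq A (span F {v})
  have h2 : A ⊓ span F {v} = ⊥ := by
    rw [eq_bot_iff]
    rintro x ⟨hx1, hx2⟩
    obtain ⟨c, rfl⟩ := mem_span_singleton.1 hx2
    by_cases hc : c = 0
    · rw [hc, zero_smul]
      exact zero_mem _
    · exfalso
      apply hv
      have : v = c⁻¹ • (c • v) := by rw [smul_smul, inv_mul_cancel₀ hc, one_smul]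
      rw [this]
      exact smul_mem _ _ hx1
  rw [h2, finrank_bot, finrank_span_singleton h0, add_zero] at h1
  exact h1

theorem mem_cov {A B C : Submodule F V} : C ∈ cov A B ↔ ∃ v ∈ B, v ∉ A ∧ A ⊔ span F {v} = C := by
  classical
  simp only [cov, mem_image, mem_filter, mem_univ, true_and]
  constructor
  · rintro ⟨v, ⟨h1, h2⟩, h3⟩
    exact ⟨v, h1, h2, h3⟩
  · rintro ⟨v, h1, h2, h3⟩
    exact ⟨v, ⟨h1, h2⟩, h3⟩

theorem le_of_mem_cov {A B C : Submodule F V} (h : C ∈ cov A B) : A ≤ C := by
  obtain ⟨v, _, _, rfl⟩ := mem_cov.1 h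
  exact le_sup_left

theorem le_of_mem_cov' {A B C : Submodule F V} (hAB : A ≤ B) (h : C ∈ cov A B) : C ≤ B := by
  obtain ⟨v, h1, _, rfl⟩ := mem_cov.1 h
  exact sup_le hAB ((span_singleton_le_iff_mem _ _).2 h1)

theorem finrank_of_mem_cov {A B C : Submodule F V} (h : C ∈ cov A B) : finrank F C = finrank F A + 1 := by
  obtain ⟨v, _, h2, rfl⟩ := mem_cov.1 h
  exact finrank_sup_span h2

theorem cn_eq_sum (D : V → Prop) {A B : Submodule F V} (hAB : A ≤ B) :
    cn D A B = ∑ C ∈ cov A B, cn D A C := by
  classical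
  have h1 : (univ.filter fun v : V => v ∈ B ∧ v ∉ A ∧ D v) =
      (cov A B).biUnion fun C => univ.filter fun v : V => v ∈ C ∧ v ∉ A ∧ D v := by
    ext v
    simp only [mem_filter, mem_univ, true_and, mem_biUnion]
    constructor
    · rintro ⟨hv1, hv2, hv3⟩
      exact ⟨A ⊔ span F {v}, mem_cov.2 ⟨v, hv1, hv2, rfl⟩,
        mem_sup_right (mem_span_singleton_self _), hv2, hv3⟩
    · rintro ⟨C, hC, hv1, hv2, hv3⟩
      exact ⟨le_of_mem_cov' hAB hC hv1, hv2, hv3⟩
  rw [cn, h1, card_biUnion]
  · rfl
  · intro C hC C' hC' hne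
    change Disjoint _ _
    rw [disjoint_left]
    intro v hv hv'
    simp only [mem_filter, mem_univ, true_and] at hv hv'
    apply hne
    obtain ⟨w, _, _, rfl⟩ := mem_cov.1 hC
    obtain ⟨w', _, _, rfl⟩ := mem_cov.1 hC'
    rw [← sup_span_eq hv.1 hv.2.1, ← sup_span_eq hv'.1 hv'.2.1]

open Classical in
theorem card_filter_mem (A : Submodule F V) : (univ.filter fun v : V => v ∈ A).card = Fintype.card F ^ finrank F A := by
  have h1 : Fintype.card A = Fintype.card F ^ finrank F A := card_eq_pow_finrank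
  rw [← h1]
  exact (Fintype.card_subtype _).symm

theorem cn_split (D : V → Prop) {A B C : Submodule F V} (hAB : A ≤ B) (hBC : B ≤ C) :
    cn D A C = cn D A B + cn D B C := by
  classical
  rw [cn, cn, cn, ← card_union_of_disjoint]
  · congr 1
    ext v
    simp only [mem_filter, mem_univ, true_and, mem_union]
    constructor
    · rintro ⟨h1, h2, h3⟩
      by_cases h : v ∈ B
      · exact Or.inl ⟨h, h2, h3⟩
      · exact Or.inr ⟨h1, h, h3⟩
    · rintro (⟨h1, h2, h3⟩ | ⟨h1, h2, h3⟩)
      · exact ⟨hBC h1, h2, h3⟩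
      · exact ⟨h1, fun h => h2 (hAB h), h3⟩
  · rw [disjoint_left]
    intro v hv hv'
    simp only [mem_filter, mem_univ, true_and] at hv hv'
    exact hv'.2.1 hv.1

theorem cn_true {A B : Submodule F V} (hAB : A ≤ B) :
    cn (fun _ : V => True) A B + Fintype.card F ^ finrank F A = Fintype.card F ^ finrank F B := by
  classical
  rw [← card_filter_mem A, ← card_filter_mem B, cn, ← card_union_of_disjoint]
  · congr 1
    ext v
    simp only [mem_filter, mem_univ, true_and, mem_union, and_true]
    constructor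
    · rintro (⟨h1, _⟩ | h1)
      · exact h1
      · exact hAB h1
    · intro h
      by_cases h' : v ∈ A
      · exact Or.inr h'
      · exact Or.inl ⟨h, h'⟩
  · rw [disjoint_left]
    intro v hv hv'
    simp only [mem_filter, mem_univ, true_and] at hv hv'
    exact hv.2.1 hv'

theorem one_lt_q : 1 < Fintype.card F := Fintype.one_lt_card

theorem card_cov {A B : Submodule F V} (hAB : A ≤ B) :
    (cov A B).card * (Fintype.card F ^ finrank F A * (Fintype.card F - 1)) + Fintype.card F ^ finrank F A =
      Fintype.card F ^ finrank F B := by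
  rw [← cn_true hAB, cn_eq_sum _ hAB]
  congr 1
  rw [sum_congr rfl (g := fun _ => Fintype.card F ^ finrank F A * (Fintype.card F - 1)), sum_const, smul_eq_mul]
  intro C hC
  have h1 := cn_true (le_of_mem_cov hC)
  rw [finrank_of_mem_cov hC] at h1
  obtain ⟨k, hk⟩ : ∃ k, Fintype.card F = k + 1 := ⟨Fintype.card F - 1, by have := one_lt_q (F := F); omega⟩
  rw [hk] at h1 ⊢
  rw [pow_succ, Nat.mul_add, Nat.mul_one] at h1
  simpa using h1

theorem card_cov_two {A B : Submodule F V} (hAB : A ≤ B) (h : finrank F B = finrank F A + 2) :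
    (cov A B).card = Fintype.card F + 1 := by
  have h1 := card_cov hAB
  obtain ⟨k, hk⟩ : ∃ k, Fintype.card F = k + 2 := ⟨Fintype.card F - 2, by have := one_lt_q (F := F); omega⟩
  rw [h, hk] at h1
  rw [hk]
  have hpos : 0 < (k + 2) ^ finrank F A := by positivity
  have h2 : (k + 2) ^ finrank F A * ((cov A B).card * (k + 1) + 1) = (k + 2) ^ finrank F A * (k + 2) ^ 2 := by
    rw [pow_add] at h1
    rw [← h1]
    simp only [show k + 2 - 1 = k + 1 by omega]
    ring
  have h3 := Nat.eq_of_mul_eq_mul_left hpos h2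
  have h4 : (cov A B).card * (k + 1) = (k + 2 + 1) * (k + 1) := by
    nlinarith
  exact Nat.eq_of_mul_eq_mul_right (by omega) h4

theorem sum_cov (D : V → Prop) {P A B : Submodule F V} (hPA : P ≤ A) (hAB : A ≤ B) :
    cn D P B + (cov A B).card * cn D P A = cn D P A + ∑ C ∈ cov A B, cn D P C := by
  have h1 : ∑ C ∈ cov A B, cn D P C = (cov A B).card * cn D P A + cn D A B := by
    rw [cn_eq_sum D hAB, ← smul_eq_mul, ← sum_const, ← sum_add_distrib]
    apply sum_congr rfl
    intro C hC
    exact cn_split D hPA (le_of_mem_cov hC)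
  rw [h1, cn_split D hPA hAB]
  ring

theorem exists_finrank (A : Submodule F V) (j : ℕ) (h : finrank F A + j ≤ finrank F V) :
    ∃ B : Submodule F V, A ≤ B ∧ finrank F B = finrank F A + j := by
  induction j with
  | zero => exact ⟨A, le_rfl, by simp⟩
  | succ j ih =>
    obtain ⟨B, hB1, hB2⟩ := ih (by omega)
    obtain ⟨v, hv⟩ : ∃ v, v ∉ B := by
      by_contra hcon
      push Not at hcon
      have : B = ⊤ := by
        rw [eq_top_iff]
        intro v _
        exact hcon v
      rw [this, finrank_top] at hB2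
      omega
    exact ⟨B ⊔ span F {v}, hB1.trans le_sup_left, by rw [finrank_sup_span hv, hB2]; ring⟩

theorem exists_finrank_between {A C : Submodule F V} (hAC : A ≤ C) (j : ℕ) (h : finrank F A + j ≤ finrank F C) :
    ∃ B : Submodule F V, A ≤ B ∧ B ≤ C ∧ finrank F B = finrank F A + j := by
  induction j with
  | zero => exact ⟨A, le_rfl, hAC, by simp⟩
  | succ j ih =>
    obtain ⟨B, hB1, hB3, hB2⟩ := ih (by omega)
    obtain ⟨v, hvC, hv⟩ : ∃ v, v ∈ C ∧ v ∉ B := by
      by_contra hcon
      push Not at hcon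
      have : C ≤ B := hcon
      have := finrank_mono this
      omega
    exact ⟨B ⊔ span F {v}, hB1.trans le_sup_left, sup_le hB3 ((span_singleton_le_iff_mem _ _).2 hvC),
      by rw [finrank_sup_span hv, hB2]; ring⟩

end Cfsg.Agent.H87.Cov
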