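import Cfsg.Agent.H87.Geo5a

/-!
# The subspaces `U x` : first properties
-/

set_option autoImplicit false
set_option linter.unusedSectionVars false

namespace Cfsg.Agent.H87.Geo5

open Finset Submodule Module MulAction
open Cfsg.Agent.H87.Cov Cfsg.Agent.H87.LemS Cfsg.Agent.H87.Flags Cfsg.Agent.H87.Orb Cfsg.Agent.H87.Geo3
open scoped Pointwise

variable {F V : Type*} [Field F] [Fintype F] [AddCommGroup V] [Module F V] [Fintype V]
variable {H : Type*} [Group H] [DistribMulAction H V] [SMulCommClass H F V]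

/-- the union of the lines of the class through a point. -/
def Up (L : Submodule F V → Prop) (P : Submodule F V) : Submodule F V := sSup {B | L B ∧ P ≤ B}

/-- the union of the lines of the class through the point of a vector. -/
def U (L : Submodule F V → Prop) (x : V) : Submodule F V := Up L (span F {x})

theorem act_Up {L : Submodule F V → Prop} (hL : LL H L) (h : H) (P : Submodule F V) :
    h • Up L P = Up L (h • P) := by
  have key : ∀ (h : H) (P : Submodule F V), h • Up L P ≤ Up L (h • P) := by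
    intro h P
    have h1 : Up L P ≤ h⁻¹ • Up L (h • P) := by
      apply sSup_le
      rintro B ⟨hB, hPB⟩
      have h2 : h • B ≤ Up L (h • P) := le_sSup ⟨hL.inv h B hB, Flags.smul_le_smul.2 hPB⟩
      have h3 : h⁻¹ • (h • B) ≤ h⁻¹ • Up L (h • P) := Flags.smul_le_smul.2 h2
      rwa [inv_smul_smul] at h3
    have h4 := (Flags.smul_le_smul (h := h)).2 h1
    rwa [smul_inv_smul] at h4
  apply le_antisymm (key h P)
  have h1 := (Flags.smul_le_smul (h := h)).2 (key h⁻¹ (h • P))
  rwa [smul_inv_smul, inv_smul_smul] at h1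

theorem act_U {L : Submodule F V → Prop} (hL : LL H L) (h : H) (x : V) : h • U L x = U L (h • x) := by
  rw [U, act_Up hL, act_span]
  rfl

variable (H) in
/-- the data. -/
structure Dat (L : Submodule F V → Prop) (d : ℕ) : Prop where
  hL : LL H L
  tr : nOrb H (Fl F V ![1]) = 1
  mem : ∀ x : V, x ≠ 0 → ∀ v, v ∈ U L x ↔ v ∈ span F {x} ∨ L (span F {x} ⊔ span F {v})
  fr : ∀ x : V, x ≠ 0 → finrank F (U L x) = d

theorem exists_smul (h1 : nOrb H (Fl F V ![1]) = 1) {x y : V} (hx : x ≠ 0) (hy : y ≠ 0) :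
    ∃ h : H, h • span F {x} = span F {y} := by
  obtain ⟨g, hg⟩ := pretransitive_of_nOrb h1 (pt (F := F) x hx) (pt y hy)
  exact ⟨g, congrArg (fun W => W.1 0) hg⟩

theorem exists_dat {L : Submodule F V → Prop} (hL : LL H L) (h1 : nOrb H (Fl F V ![1]) = 1)
    (hU : ∀ x : V, x ≠ 0 → ∃ U : Submodule F V, ∀ v, v ∈ U ↔ v ∈ span F {x} ∨ L (span F {x} ⊔ span F {v})) :
    ∃ d, Dat H L d ∧ 2 ≤ d ∧ d + 1 ≤ finrank F V := by
  have hmem : ∀ x : V, x ≠ 0 → ∀ v, v ∈ U L x ↔ v ∈ span F {x} ∨ L (span F {x} ⊔ span F {v}) := by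
    intro x hx v
    obtain ⟨W, hW⟩ := hU x hx
    have e : U L x = W := by
      apply le_antisymm
      · apply sSup_le
        rintro B ⟨hB, hPB⟩ v hv
        rw [hW]
        by_cases hvx : v ∈ span F {x}
        · exact Or.inl hvx
        · right
          have h2 : span F {x} ⊔ span F {v} = B := by
            apply eq_of_le_of_finrank_eq
            · exact sup_le hPB ((span_singleton_le_iff_mem _ _).2 hv)
            · rw [finrank_sup_span hvx, finrank_span_singleton hx, hL.fr B hB]
          rw [h2]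
          exact hB
      · intro v hv
        rw [hW] at hv
        rcases hv with hv | hv
        · obtain ⟨p, _, hp⟩ := exists_line hL h1 hx
          have h2 : span F {x} ⊔ span F {p} ≤ U L x := le_sSup ⟨hp, le_sup_left⟩
          exact h2 (mem_sup_left hv)
        · have h2 : span F {x} ⊔ span F {v} ≤ U L x := le_sSup ⟨hv, le_sup_left⟩
          exact h2 (mem_sup_right (mem_span_singleton_self v))
    rw [e, hW]
  obtain ⟨x, hx⟩ : ∃ x : V, x ≠ 0 := by
    obtain ⟨B, hB⟩ := hL.ex
    have hB2 := hL.fr B hB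
    have hne : B ≠ ⊥ := by
      rintro rfl
      rw [finrank_bot] at hB2
      omega
    obtain ⟨y, _, hy'⟩ := exists_mem_ne_zero_of_ne_bot hne
    exact ⟨y, hy'⟩
  refine ⟨finrank F (U L x), ⟨hL, h1, hmem, ?_⟩, ?_, ?_⟩
  · intro y hy
    obtain ⟨g, hg⟩ := exists_smul h1 hx hy
    have e : U L y = g • U L x := by
      rw [U, U, act_Up hL, hg]
    rw [e, Flags.finrank_smul]
  · obtain ⟨p, hp, hp'⟩ := exists_line hL h1 hx
    have h2 : span F {x} ⊔ span F {p} ≤ U L x := le_sSup ⟨hp', le_sup_left⟩
    have h3 := finrank_mono h2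
    rwa [finrank_sup_span hp, finrank_span_singleton hx] at h3
  · obtain ⟨p, hp, hp'⟩ := exists_line hL.compl h1 hx
    have h2 : U L x < ⊤ := by
      rw [lt_top_iff_ne_top]
      intro h
      have : p ∈ U L x := by rw [h]; exact mem_top
      rw [hmem x hx] at this
      rcases this with h | h
      · exact hp h
      · exact hp'.2 h
    have h3 := finrank_lt_finrank_of_lt h2
    rw [finrank_top] at h3
    omega

section
variable {L : Submodule F V → Prop} {d : ℕ} (D : Dat H L d)
include D

theorem Dat.self_mem {x : V} (hx : x ≠ 0) : x ∈ U L x :=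
  (D.mem x hx x).2 (Or.inl (mem_span_singleton_self x))

omit D [Fintype F] [Fintype V] in
theorem mem_span_comm {x y : V} (hy : y ≠ 0) (h : y ∈ span F {x}) : x ∈ span F {y} := by
  obtain ⟨c, rfl⟩ := mem_span_singleton.1 h
  have hc : c ≠ 0 := by
    rintro rfl
    exact hy (zero_smul _ _)
  refine mem_span_singleton.2 ⟨c⁻¹, ?_⟩
  rw [smul_smul, inv_mul_cancel₀ hc, one_smul]

theorem Dat.symm {x y : V} (hx : x ≠ 0) (hy : y ≠ 0) (h : y ∈ U L x) : x ∈ U L y := by
  rw [D.mem x hx] at h
  rw [D.mem y hy]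
  rcases h with h | h
  · exact Or.inl (mem_span_comm hy h)
  · right
    rwa [sup_comm]

theorem Dat.line {x v : V} (hx : x ≠ 0) (h : v ∈ U L x) (hv : v ∉ span F {x}) : L (span F {x} ⊔ span F {v}) := by
  rw [D.mem x hx] at h
  exact h.resolve_left hv

omit D in
theorem le_U {B : Submodule F V} (hB : L B) {x : V} (hx : x ∈ B) : B ≤ U L x :=
  le_sSup ⟨hB, (span_singleton_le_iff_mem _ _).2 hx⟩

omit D in
theorem U_congr {x y : V} (h : span F {x} = span F {y}) : U L x = U L y := by
  rw [U, U, h]

omit D [Fintype F] [Fintype V] in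
theorem span_eq_of_mem {x y : V} (hy : y ≠ 0) (h : y ∈ span F {x}) : span F {y} = span F {x} := by
  apply le_antisymm
  · rwa [span_singleton_le_iff_mem]
  · rw [span_singleton_le_iff_mem]
    obtain ⟨c, rfl⟩ := mem_span_singleton.1 h
    have hc : c ≠ 0 := by
      rintro rfl
      exact hy (zero_smul _ _)
    refine mem_span_singleton.2 ⟨c⁻¹, ?_⟩
    rw [smul_smul, inv_mul_cancel₀ hc, one_smul]

/-- a line is in the class if and only if it is in `U x` for one of its vectors. -/
theorem Dat.line_iff {B : Submodule F V} (hB : finrank F B = 2) {x : V} (hx : x ≠ 0) (hxB : x ∈ B) : L B ↔ B ≤ U L x := by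
  refine ⟨fun h => le_U h hxB, fun h => ?_⟩
  obtain ⟨v, hv, hv'⟩ : ∃ v ∈ B, v ∉ span F {x} := by
    by_contra hcon
    push Not at hcon
    have h3 : B ≤ span F {x} := hcon
    have := finrank_mono h3
    rw [finrank_span_singleton hx] at this
    omega
  have h2 : span F {x} ⊔ span F {v} = B := by
    apply eq_of_le_of_finrank_eq
    · exact sup_le ((span_singleton_le_iff_mem _ _).2 hxB) ((span_singleton_le_iff_mem _ _).2 hv)
    · rw [finrank_sup_span hv', finrank_span_singleton hx, hB]
  rw [← h2]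
  exact D.line hx (h hv) hv'

end

/-- two subspaces with too large dimensions meet. -/
theorem exists_inf {A B C : Submodule F V} (hA : A ≤ C) (hB : B ≤ C) (h : finrank F C < finrank F A + finrank F B) :
    ∃ z, z ≠ 0 ∧ z ∈ A ∧ z ∈ B := by
  have h1 := finrank_sup_add_finrank_inf_eq A B
  have h2 := finrank_mono (sup_le hA hB)
  have h3 : A ⊓ B ≠ ⊥ := by
    intro h3
    rw [h3, finrank_bot] at h1
    omega
  obtain ⟨z, hz, hz'⟩ := exists_mem_ne_zero_of_ne_bot h3
  exact ⟨z, hz', hz.1, hz.2⟩

/-- a double count. -/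
theorem dc {α β : Type*} (s : Finset α) (t : Finset β) (r : α → β → Prop) [∀ a b, Decidable (r a b)] (c : ℕ)
    (h1 : ∀ a ∈ s, ∃! b, b ∈ t ∧ r a b) (h2 : ∀ b ∈ t, (s.filter fun a => r a b).card = c) : s.card = t.card * c := by
  have h3 : #s * 1 = #t * c := by
    apply card_mul_eq_card_mul r
    · intro a ha
      obtain ⟨b, hb, hb'⟩ := h1 a ha
      rw [card_eq_one]
      refine ⟨b, ?_⟩
      ext b'
      rw [mem_bipartiteAbove, mem_singleton]
      constructor
      · exact fun h => hb' b' h
      · rintro rfl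
        exact hb
    · intro b hb
      exact h2 b hb
  rwa [mul_one] at h3

/-- the points of a line. -/
theorem mem_points {B P : Submodule F V} : P ∈ cov ⊥ B ↔ ∃ x ∈ B, x ≠ 0 ∧ span F {x} = P := by
  rw [mem_cov]
  simp only [mem_bot, bot_sup_eq]

theorem card_points {B : Submodule F V} (hB : finrank F B = 2) : (cov (⊥ : Submodule F V) B).card = Fintype.card F + 1 := by
  apply card_cov_two bot_le
  rw [hB, finrank_bot]

end Cfsg.Agent.H87.Geo5
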