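import Cfsg.Agent.H87.Geo5b

/-!
# The subspaces `U x` have dimension 2 or `n - 1`
-/

set_option autoImplicit false
set_option linter.unusedSectionVars false

namespace Cfsg.Agent.H87.Geo5

open Finset Submodule Module MulAction
open Cfsg.Agent.H87.Cov Cfsg.Agent.H87.LemS Cfsg.Agent.H87.Flags Cfsg.Agent.H87.Orb Cfsg.Agent.H87.Geo3
open scoped Pointwise

variable {F V : Type*} [Field F] [Fintype F] [AddCommGroup V] [Module F V] [Fintype V]
variable {H : Type*} [Group H] [DistribMulAction H V] [SMulCommClass H F V]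

/-- `E` has a point of type `t`. -/
def has (L : Submodule F V → Prop) (E : Submodule F V) (t : ℕ) : Prop := ∃ y ∈ E, y ≠ 0 ∧ finrank F ↥(E ⊓ U L y) = t

section
variable {L : Submodule F V → Prop} {d : ℕ} (D : Dat H L d)
include D

theorem Dat.has_smul {E : Submodule F V} {t : ℕ} (h : has L E t) (g : H) : has L (g • E) t := by
  obtain ⟨y, hy, hy0, ht⟩ := h
  refine ⟨g • y, Flags.smul_mem_smul.2 hy, ?_, ?_⟩
  · rwa [Ne, smul_eq_zero_iff_eq]
  · rw [← act_U D.hL, ← act_inf, Flags.finrank_smul, ht]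

theorem Dat.types (h1 : 3 ≤ d) (h2 : d + 2 ≤ finrank F V) {x : V} (hx : x ≠ 0) (t : ℕ) (ht1 : 1 ≤ t) (ht3 : t ≤ 3) :
    ∃ E : Submodule F V, finrank F E = 3 ∧ x ∈ E ∧ finrank F ↥(E ⊓ U L x) = t := by
  have hxU := D.self_mem hx
  have hfr := D.fr x hx
  have hxs : span F {x} ≤ U L x := (span_singleton_le_iff_mem _ _).2 hxU
  -- a subspace of `U x` of dimension `t`, and a complement
  obtain ⟨A, hA1, hA2, hA3⟩ := exists_finrank_between hxs (t - 1) (by rw [finrank_span_singleton hx]; omega)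
  rw [finrank_span_singleton hx] at hA3
  have hA : finrank F A = t := by omega
  -- adding vectors outside
  have key : ∀ j, d + j ≤ finrank F V → ∃ E : Submodule F V, finrank F E = t + j ∧ A ≤ E ∧
      finrank F ↥(E ⊔ U L x) = d + j := by
    intro j
    induction j with
    | zero =>
      intro _
      refine ⟨A, by rw [hA]; rfl, le_rfl, ?_⟩
      rw [sup_eq_right.2 hA2, hfr]; rfl
    | succ j ih =>
      intro hj
      obtain ⟨E, hE1, hE2, hE3⟩ := ih (by omega)
      obtain ⟨v, hv⟩ : ∃ v, v ∉ E ⊔ U L x := by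
        by_contra hcon
        push Not at hcon
        have : E ⊔ U L x = ⊤ := by
          rw [eq_top_iff]
          intro v _
          exact hcon v
        rw [this, finrank_top] at hE3
        omega
      refine ⟨E ⊔ span F {v}, ?_, hE2.trans le_sup_left, ?_⟩
      · rw [finrank_sup_span (fun h => hv (mem_sup_left h)), hE1]; ring
      · rw [sup_right_comm, finrank_sup_span hv, hE3]; ring
  obtain ⟨E, hE1, hE2, hE3⟩ := key (3 - t) (by omega)
  refine ⟨E, by omega, hE2 (hA1 (mem_span_singleton_self x)), ?_⟩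
  have h4 := finrank_sup_add_finrank_inf_eq E (U L x)
  rw [hE3, hfr, hE1] at h4
  omega

/-- the type of a point in a plane. -/
theorem Dat.type_le {E : Submodule F V} (hE : finrank F E = 3) {y : V} (hy : y ≠ 0) (hyE : y ∈ E) :
    1 ≤ finrank F ↥(E ⊓ U L y) ∧ finrank F ↥(E ⊓ U L y) ≤ 3 := by
  constructor
  · have : span F {y} ≤ E ⊓ U L y := by
      rw [span_singleton_le_iff_mem]
      exact ⟨hyE, D.self_mem hy⟩
    have h := finrank_mono this
    rwa [finrank_span_singleton hy] at h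
  · rw [← hE]
    exact finrank_mono inf_le_left

theorem Dat.trans13 (h13 : nOrb H (Fl F V ![1, 3]) = 3) (h1 : 3 ≤ d) (h2 : d + 2 ≤ finrank F V) {E E' : Submodule F V}
    (hE : finrank F E = 3) (hE' : finrank F E' = 3) {t t' : ℕ} (h : has L E t) (h' : has L E' t) (ht' : has L E t') :
    has L E' t' := by
  classical
  obtain ⟨x, hxE, hx, hxt⟩ := h
  obtain ⟨x', hxE', hx', hxt'⟩ := h'
  let f : Fl F V ![1, 3] → ℕ := fun W => finrank F ↥(W.1 1 ⊓ Up L (W.1 0))
  have hf : ∀ (g : H) W, f (g • W) = f W := by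
    intro g W
    change finrank F ↥(g • W.1 1 ⊓ Up L (g • W.1 0)) = _
    rw [← act_Up D.hL, ← act_inf, Flags.finrank_smul]
  have hval : ∀ (E : Submodule F V) (hE : finrank F E = 3) (x : V) (hx : x ≠ 0) (hxE : x ∈ E),
      f (fl13 (span F {x}) E (finrank_span_singleton hx) hE ((span_singleton_le_iff_mem _ _).2 hxE)) =
        finrank F ↥(E ⊓ U L x) := fun _ _ _ _ _ => rfl
  obtain ⟨g, hg⟩ := orbit_of_invariant (G := H) f hf {1, 2, 3} (by
      intro t ht
      have ht1 : 1 ≤ t ∧ t ≤ 3 := by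
        simp only [mem_insert, mem_singleton] at ht
        omega
      obtain ⟨E, hE1, hE2, hE3⟩ := D.types h1 h2 hx t ht1.1 ht1.2
      exact ⟨fl13 (span F {x}) E (finrank_span_singleton hx) hE1 ((span_singleton_le_iff_mem _ _).2 hE2), hE3⟩)
    (by rw [h13]; rfl)
    (y := fl13 (span F {x}) E (finrank_span_singleton hx) hE ((span_singleton_le_iff_mem _ _).2 hxE))
    (y' := fl13 (span F {x'}) E' (finrank_span_singleton hx') hE' ((span_singleton_le_iff_mem _ _).2 hxE'))
    (((hval E hE x hx hxE).trans (hxt.trans hxt'.symm)).trans (hval E' hE' x' hx' hxE').symm)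
  have e : g • E = E' := congrArg (fun W => W.1 1) hg
  rw [← e]
  exact D.has_smul ht' g

/-- types 1 and 3 do not coexist. -/
theorem Dat.no13 {E : Submodule F V} (hE : finrank F E = 3) (h1 : has L E 1) (h3 : has L E 3) : False := by
  obtain ⟨x, hxE, hx, hxt⟩ := h1
  obtain ⟨y, hyE, hy, hyt⟩ := h3
  have h2 : E ≤ U L y := by
    have : E ⊓ U L y = E := eq_of_le_of_finrank_eq inf_le_left (by rw [hyt, hE])
    rw [← this]
    exact inf_le_right
  have h4 := D.symm hy hx (h2 hxE)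
  by_cases h5 : y ∈ span F {x}
  · rw [← U_congr (L := L) (span_eq_of_mem hy h5)] at hxt
    omega
  · have h6 : span F {x} ⊔ span F {y} ≤ E ⊓ U L x := by
      refine sup_le ?_ ?_
      · rw [span_singleton_le_iff_mem]
        exact ⟨hxE, D.self_mem hx⟩
      · rw [span_singleton_le_iff_mem]
        exact ⟨hyE, h4⟩
    have h7 := finrank_mono h6
    rw [finrank_sup_span h5, finrank_span_singleton hx, hxt] at h7
    omega

theorem Dat.exists_not2 {E : Submodule F V} (hE : finrank F E = 3) : has L E 1 ∨ has L E 3 := by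
  by_contra hcon
  rw [not_or] at hcon
  have h2 : ∀ y ∈ E, y ≠ 0 → finrank F ↥(E ⊓ U L y) = 2 := by
    intro y hy hy0
    have h3 := D.type_le hE hy0 hy
    have h4 : finrank F ↥(E ⊓ U L y) ≠ 1 := fun h => hcon.1 ⟨y, hy, hy0, h⟩
    have h5 : finrank F ↥(E ⊓ U L y) ≠ 3 := fun h => hcon.2 ⟨y, hy, hy0, h⟩
    omega
  have hne : E ≠ ⊥ := by
    rintro rfl
    rw [finrank_bot] at hE
    omega
  obtain ⟨y, hyE, hy⟩ := exists_mem_ne_zero_of_ne_bot hne
  have hy2 := h2 y hyE hy
  obtain ⟨z, hzE, hz⟩ : ∃ z ∈ E, z ∉ E ⊓ U L y := by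
    by_contra hcon
    push Not at hcon
    have h3 : E ≤ E ⊓ U L y := hcon
    have := finrank_mono h3
    omega
  have hz0 : z ≠ 0 := by
    rintro rfl
    exact hz (zero_mem _)
  have hz2 := h2 z hzE hz0
  obtain ⟨w, hw0, hwy, hwz⟩ := exists_inf (A := E ⊓ U L y) (B := E ⊓ U L z) inf_le_left inf_le_left (by omega)
  have hwE : w ∈ E := hwy.1
  have h3 : y ∈ U L w := D.symm hy hw0 hwy.2
  have h4 : z ∈ U L w := D.symm hz0 hw0 hwz.2
  have h5 : w ∉ span F {y} := by
    intro h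
    apply hz
    refine ⟨hzE, ?_⟩
    rw [← U_congr (L := L) (span_eq_of_mem hw0 h)]
    exact h4
  have h6 : span F {y} ⊔ span F {w} = E ⊓ U L y := by
    apply eq_of_le_of_finrank_eq
    · refine sup_le ?_ ?_
      · rw [span_singleton_le_iff_mem]
        exact ⟨hyE, D.self_mem hy⟩
      · rw [span_singleton_le_iff_mem]
        exact hwy
    · rw [finrank_sup_span h5, finrank_span_singleton hy, hy2]
  have h7 : span F {y} ⊔ span F {w} ⊔ span F {z} ≤ E ⊓ U L w := by
    refine sup_le (sup_le ?_ ?_) ?_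
    · rw [span_singleton_le_iff_mem]
      exact ⟨hyE, h3⟩
    · rw [span_singleton_le_iff_mem]
      exact ⟨hwE, D.self_mem hw0⟩
    · rw [span_singleton_le_iff_mem]
      exact ⟨hzE, h4⟩
  have h8 := finrank_mono h7
  rw [finrank_sup_span (by rw [h6]; exact hz), h6, hy2, h2 w hwE hw0] at h8
  omega

omit D in
theorem arith1 {q n d : ℕ} (hq : 2 ≤ q) (hn : 5 ≤ n) (hd : 3 ≤ d) (s c : ℕ) (hs : s + q ^ 2 = q ^ n)
    (hc : c + q ^ 2 = q ^ (d + 1)) (h : s = (q + 1) * c) : False := by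
  obtain ⟨k, rfl⟩ : ∃ k, n = k + 5 := ⟨n - 5, by omega⟩
  obtain ⟨l, rfl⟩ : ∃ l, d = l + 3 := ⟨d - 3, by omega⟩
  have h1 : q ^ (k + 5) + q ^ 3 = (q + 1) * q ^ (l + 3 + 1) := by
    rw [← hs, ← hc, h]
    ring
  have h2 : q ^ 3 * (q ^ (k + 2) + 1) = q ^ 3 * ((q + 1) * q ^ (l + 1)) := by
    have e1 : q ^ 3 * (q ^ (k + 2) + 1) = q ^ (k + 5) + q ^ 3 := by ring
    rw [e1, h1]
    ring
  have h3 := Nat.eq_of_mul_eq_mul_left (by positivity) h2
  have h4 : q ∣ 1 := by
    have h5 : q ∣ q ^ (k + 2) := dvd_pow_self q (by omega)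
    have h6 : q ∣ (q + 1) * q ^ (l + 1) := Dvd.dvd.mul_left (dvd_pow_self q (by omega)) _
    rw [← h3] at h6
    exact (Nat.dvd_add_right h5).1 h6
  have := Nat.le_of_dvd one_pos h4
  omega

omit D in
theorem arith2 {q n d : ℕ} (hq : 2 ≤ q) (hn : 5 ≤ n) (hd : 3 ≤ d) (s c : ℕ) (hs : s + q ^ 2 = q ^ n)
    (hc : c + q ^ 2 = q ^ d) (h : s = (q + 1) * c) : False := by
  obtain ⟨k, rfl⟩ : ∃ k, n = k + 5 := ⟨n - 5, by omega⟩
  obtain ⟨l, rfl⟩ : ∃ l, d = l + 3 := ⟨d - 3, by omega⟩
  have h1 : q ^ (k + 5) + q ^ 3 = (q + 1) * q ^ (l + 3) := by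
    rw [← hs, ← hc, h]
    ring
  have h2 : q ^ 3 * (q ^ (k + 2) + 1) = q ^ 3 * ((q + 1) * q ^ l) := by
    have e1 : q ^ 3 * (q ^ (k + 2) + 1) = q ^ (k + 5) + q ^ 3 := by ring
    rw [e1, h1]
    ring
  have h3 := Nat.eq_of_mul_eq_mul_left (by positivity) h2
  rcases Nat.eq_zero_or_pos l with rfl | hl
  · rw [pow_zero, mul_one] at h3
    have h4 : q ^ (k + 2) = q := by omega
    have h5 : q ^ 1 < q ^ (k + 2) := Nat.pow_lt_pow_right (by omega) (by omega)
    rw [pow_one, h4] at h5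
    omega
  · have h4 : q ∣ 1 := by
      have h5 : q ∣ q ^ (k + 2) := dvd_pow_self q (by omega)
      have h6 : q ∣ (q + 1) * q ^ l := Dvd.dvd.mul_left (dvd_pow_self q (by omega)) _
      rw [← h3] at h6
      exact (Nat.dvd_add_right h5).1 h6
    have := Nat.le_of_dvd one_pos h4
    omega

omit D in
theorem card_compl {B C : Submodule F V} (hBC : B ≤ C) (hB : finrank F B = 2) [DecidablePred fun v : V => v ∉ B]
    [DecidablePred fun v : V => v ∈ C] :
    ((univ.filter fun v : V => v ∉ B).filter fun v => v ∈ C).card + Fintype.card F ^ 2 =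
      Fintype.card F ^ finrank F C := by
  classical
  rw [← cn_true hBC, cn, hB]
  congr 2
  ext v
  simp only [mem_filter, mem_univ, true_and, and_true]
  exact and_comm

omit D in
theorem card_compl' {B : Submodule F V} (hB : finrank F B = 2) [DecidablePred fun v : V => v ∉ B] :
    (univ.filter fun v : V => v ∉ B).card + Fintype.card F ^ 2 = Fintype.card F ^ finrank F V := by
  classical
  rw [← finrank_top F V, ← cn_true (le_top : B ≤ ⊤), cn, hB]
  congr 2
  ext v
  simp only [mem_filter, mem_univ, true_and, and_true, mem_top]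

omit D [Fintype F] [Fintype V] in
theorem ne_bot_of {B : Submodule F V} {k : ℕ} (hB : finrank F B = k + 1) : B ≠ ⊥ := by
  rintro rfl
  rw [finrank_bot] at hB
  omega

omit D in
theorem line_eq {B : Submodule F V} (hB : finrank F B = 2) {x x' : V} (hx : x ∈ B) (hx' : x' ∈ B) (hx0 : x ≠ 0)
    (h : x' ∉ span F {x}) : span F {x} ⊔ span F {x'} = B := by
  apply eq_of_le_of_finrank_eq
  · exact sup_le ((span_singleton_le_iff_mem _ _).2 hx) ((span_singleton_le_iff_mem _ _).2 hx')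
  · rw [finrank_sup_span h, finrank_span_singleton hx0, hB]

set_option maxHeartbeats 1000000 in
theorem Dat.opt1 (hn : 5 ≤ finrank F V) (h1 : 3 ≤ d) (h2 : ∀ E : Submodule F V, finrank F E = 3 →
    (has L E 1 ↔ has L E 2)) : False := by
  classical
  obtain ⟨B, hB2, hBL⟩ := D.hL.ex'
  have hBx : ∀ x ∈ B, x ≠ 0 → ¬ B ≤ U L x := fun x hx hx0 h => hBL ((D.line_iff hB2 hx0 hx).2 h)
  -- dimension of B ⊔ U x
  have hdim : ∀ x ∈ B, x ≠ 0 → finrank F ↥(B ⊔ U L x) = d + 1 := by
    intro x hx hx0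
    have h4 := finrank_sup_add_finrank_inf_eq B (U L x)
    rw [hB2, D.fr x hx0] at h4
    have h5 : finrank F ↥(B ⊓ U L x) < 2 := by
      rw [← hB2]
      apply finrank_lt_finrank_of_lt
      refine lt_of_le_of_ne inf_le_left fun h => hBx x hx hx0 ?_
      rw [← h]
      exact inf_le_right
    have h6 : 1 ≤ finrank F ↥(B ⊓ U L x) := by
      have : span F {x} ≤ B ⊓ U L x := by
        rw [span_singleton_le_iff_mem]
        exact ⟨hx, D.self_mem hx0⟩
      have h := finrank_mono this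
      rwa [finrank_span_singleton hx0] at h
    omega
  -- types of the points of `B` in a plane
  have htype : ∀ v, v ∉ B → ∀ x ∈ B, x ≠ 0 → finrank F ↥((B ⊔ span F {v}) ⊓ U L x) = 1 ∨
      finrank F ↥((B ⊔ span F {v}) ⊓ U L x) = 2 := by
    intro v hv x hx hx0
    have hE : finrank F ↥(B ⊔ span F {v}) = 3 := by rw [finrank_sup_span hv, hB2]
    have h4 := D.type_le hE hx0 (mem_sup_left hx)
    have h5 : finrank F ↥((B ⊔ span F {v}) ⊓ U L x) ≠ 3 := by
      intro h
      have h6 : (B ⊔ span F {v}) ⊓ U L x = B ⊔ span F {v} := eq_of_le_of_finrank_eq inf_le_left (by rw [h, hE])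
      apply hBx x hx hx0
      exact (le_sup_left.trans h6.ge).trans inf_le_right
    omega
  have hplane : ∀ v, v ∉ B → finrank F ↥(B ⊔ span F {v}) = 3 ∧ has L (B ⊔ span F {v}) 1 ∧
      has L (B ⊔ span F {v}) 2 := by
    intro v hv
    have hE : finrank F ↥(B ⊔ span F {v}) = 3 := by rw [finrank_sup_span hv, hB2]
    obtain ⟨x, hx, hx0⟩ := exists_mem_ne_zero_of_ne_bot (ne_bot_of hB2)
    refine ⟨hE, ?_⟩
    rcases htype v hv x hx hx0 with h | h
    · have h' : has L (B ⊔ span F {v}) 1 := ⟨x, mem_sup_left hx, hx0, h⟩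
      exact ⟨h', (h2 _ hE).1 h'⟩
    · have h' : has L (B ⊔ span F {v}) 2 := ⟨x, mem_sup_left hx, hx0, h⟩
      exact ⟨(h2 _ hE).2 h', h'⟩
  -- uniqueness
  have huniq : ∀ v, v ∉ B → ∀ x ∈ B, x ≠ 0 → ∀ x' ∈ B, x' ≠ 0 → v ∈ B ⊔ U L x → v ∈ B ⊔ U L x' →
      span F {x'} = span F {x} := by
    intro v hv x hx hx0 x' hx' hx0' hvx hvx'
    obtain ⟨hE, ha, _⟩ := hplane v hv
    have aux : ∀ x ∈ B, x ≠ 0 → v ∈ B ⊔ U L x → finrank F ↥((B ⊔ span F {v}) ⊓ U L x) = 2 := by
      intro x hx hx0 hvx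
      obtain ⟨b, hb, w, hw, hbw⟩ := mem_sup.1 hvx
      have hwE : w ∈ B ⊔ span F {v} := by
        have : w = v - b := by rw [← hbw]; abel
        rw [this]
        exact sub_mem (mem_sup_right (mem_span_singleton_self v)) (mem_sup_left hb)
      have hwB : w ∉ B := fun h => hv (by rw [← hbw]; exact add_mem hb h)
      have hwx : w ∉ span F {x} := fun h => hwB ((span_singleton_le_iff_mem x B).2 hx h)
      have h3 : span F {x} ⊔ span F {w} ≤ (B ⊔ span F {v}) ⊓ U L x := by
        refine sup_le ?_ ?_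
        · rw [span_singleton_le_iff_mem]
          exact ⟨mem_sup_left hx, D.self_mem hx0⟩
        · rw [span_singleton_le_iff_mem]
          exact ⟨hwE, hw⟩
      have h4 := finrank_mono h3
      rw [finrank_sup_span hwx, finrank_span_singleton hx0] at h4
      rcases htype v hv x hx hx0 with h | h
      · omega
      · exact h
    have h3 := aux x hx hx0 hvx
    have h3' := aux x' hx' hx0' hvx'
    have hL1 : L ((B ⊔ span F {v}) ⊓ U L x) := (D.line_iff h3 hx0 ⟨mem_sup_left hx, D.self_mem hx0⟩).2 inf_le_right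
    have hL2 : L ((B ⊔ span F {v}) ⊓ U L x') :=
      (D.line_iff h3' hx0' ⟨mem_sup_left hx', D.self_mem hx0'⟩).2 inf_le_right
    by_cases he : (B ⊔ span F {v}) ⊓ U L x = (B ⊔ span F {v}) ⊓ U L x'
    · by_cases hxx : x' ∈ span F {x}
      · exact span_eq_of_mem hx0' hxx
      · exfalso
        apply hBL
        have e1 := line_eq hB2 hx hx' hx0 hxx
        have e2 : span F {x} ⊔ span F {x'} = (B ⊔ span F {v}) ⊓ U L x := by
          apply line_eq h3 ⟨mem_sup_left hx, D.self_mem hx0⟩ _ hx0 hxx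
          rw [he]
          exact ⟨mem_sup_left hx', D.self_mem hx0'⟩
        rw [← e1, e2]
        exact hL1
    · exfalso
      obtain ⟨z, hz0, hz1, hz2⟩ := exists_inf (A := (B ⊔ span F {v}) ⊓ U L x) (B := (B ⊔ span F {v}) ⊓ U L x')
        inf_le_left inf_le_left (by omega)
      have h4 := le_U hL1 hz1
      have h5 := le_U hL2 hz2
      have h6 : (B ⊔ span F {v}) ⊓ U L x < ((B ⊔ span F {v}) ⊓ U L x) ⊔ ((B ⊔ span F {v}) ⊓ U L x') := by
        refine lt_of_le_of_ne le_sup_left fun h => he ?_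
        symm
        apply eq_of_le_of_finrank_eq
        · rw [h]
          exact le_sup_right
        · rw [h3, h3']
      have h7 := finrank_lt_finrank_of_lt h6
      have h8 : ((B ⊔ span F {v}) ⊓ U L x) ⊔ ((B ⊔ span F {v}) ⊓ U L x') ≤ (B ⊔ span F {v}) ⊓ U L z :=
        sup_le (le_inf inf_le_left h4) (le_inf inf_le_left h5)
      have h9 := finrank_mono h8
      have h10 := D.type_le hE hz0 hz1.1
      exact D.no13 hE ha ⟨z, hz1.1, hz0, by omega⟩
  -- the count
  have h3 := dc (univ.filter fun v : V => v ∉ B) (cov ⊥ B) (fun v P => v ∈ B ⊔ Up L P)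
    (Fintype.card F ^ (d + 1) - Fintype.card F ^ 2) (by
      intro v hv
      have hv' : v ∉ B := (mem_filter.1 hv).2
      obtain ⟨hE, ha, y, hyE, hy, hyt⟩ := hplane v hv'
      have hL1 : L ((B ⊔ span F {v}) ⊓ U L y) := (D.line_iff hyt hy ⟨hyE, D.self_mem hy⟩).2 inf_le_right
      obtain ⟨x, hx0, hxB, hx1⟩ := exists_inf (A := B) (B := (B ⊔ span F {v}) ⊓ U L y) (C := B ⊔ span F {v})
        le_sup_left inf_le_left (by omega)
      have h4 := le_U hL1 hx1
      have h5 : B ⊔ ((B ⊔ span F {v}) ⊓ U L y) = B ⊔ span F {v} := by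
        apply eq_of_le_of_finrank_le
        · exact sup_le le_sup_left inf_le_left
        · rw [hE]
          have h6 : B < B ⊔ ((B ⊔ span F {v}) ⊓ U L y) := by
            refine lt_of_le_of_ne le_sup_left fun h => hBL ?_
            have h7 : (B ⊔ span F {v}) ⊓ U L y = B := by
              apply eq_of_le_of_finrank_eq
              · exact le_sup_right.trans h.ge
              · rw [hyt, hB2]
            rwa [h7] at hL1
          have h8 := finrank_lt_finrank_of_lt h6
          omega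
      have h9 : v ∈ B ⊔ U L x := by
        have h10 : v ∈ B ⊔ span F {v} := mem_sup_right (mem_span_singleton_self v)
        rw [← h5] at h10
        have h11 : B ⊔ ((B ⊔ span F {v}) ⊓ U L y) ≤ B ⊔ U L x := sup_le le_sup_left (h4.trans le_sup_right)
        exact h11 h10
      refine ⟨span F {x}, ⟨mem_points.2 ⟨x, hxB, hx0, rfl⟩, h9⟩, ?_⟩
      rintro P ⟨hP, hvP⟩
      obtain ⟨x', hx', hx0', rfl⟩ := mem_points.1 hP
      exact huniq v hv' x hxB hx0 x' hx' hx0' h9 hvP) (by
      intro P hP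
      obtain ⟨x, hx, hx0, rfl⟩ := mem_points.1 hP
      have h4 := card_compl (le_sup_left : B ≤ B ⊔ U L x) hB2
      rw [hdim x hx hx0] at h4
      rw [← h4, Nat.add_sub_cancel]
      rfl)
  rw [card_points hB2] at h3
  have hq := one_lt_q (F := F)
  have h4 := card_compl' hB2
  have h5 : Fintype.card F ^ 2 ≤ Fintype.card F ^ (d + 1) := Nat.pow_le_pow_right (by omega) (by omega)
  exact arith1 hq hn h1 _ _ h4 (Nat.sub_add_cancel h5) h3

set_option maxHeartbeats 1000000 in
theorem Dat.opt2 (hn : 5 ≤ finrank F V) (h1 : 3 ≤ d) (h2 : ∀ E : Submodule F V, finrank F E = 3 →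
    (has L E 2 ↔ has L E 3)) : False := by
  classical
  obtain ⟨B, hBL⟩ := D.hL.ex
  have hB2 := D.hL.fr B hBL
  have hBx : ∀ x ∈ B, B ≤ U L x := fun x hx => le_U hBL hx
  have hplane : ∀ v, v ∉ B → finrank F ↥(B ⊔ span F {v}) = 3 ∧ has L (B ⊔ span F {v}) 2 ∧
      has L (B ⊔ span F {v}) 3 := by
    intro v hv
    have hE : finrank F ↥(B ⊔ span F {v}) = 3 := by rw [finrank_sup_span hv, hB2]
    obtain ⟨x, hx, hx0⟩ := exists_mem_ne_zero_of_ne_bot (ne_bot_of hB2)
    refine ⟨hE, ?_⟩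
    have h4 := D.type_le hE hx0 (mem_sup_left hx)
    have h5 : B ≤ (B ⊔ span F {v}) ⊓ U L x := le_inf le_sup_left (hBx x hx)
    have h6 := finrank_mono h5
    have h7 : finrank F ↥((B ⊔ span F {v}) ⊓ U L x) = 2 ∨ finrank F ↥((B ⊔ span F {v}) ⊓ U L x) = 3 := by omega
    rcases h7 with h | h
    · have h' : has L (B ⊔ span F {v}) 2 := ⟨x, mem_sup_left hx, hx0, h⟩
      exact ⟨h', (h2 _ hE).1 h'⟩
    · have h' : has L (B ⊔ span F {v}) 3 := ⟨x, mem_sup_left hx, hx0, h⟩
      exact ⟨(h2 _ hE).2 h', h'⟩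
  -- a point of type 2 is never the pole of the plane
  have hno : ∀ v, v ∉ B → ∀ w, w ≠ 0 → finrank F ↥((B ⊔ span F {v}) ⊓ U L w) = 2 → B ≤ U L w →
      (∃ u ∈ U L w, u ∈ B ⊔ span F {v} ∧ u ∉ B) → False := by
    rintro v hv w hw hw2 hBw ⟨u, hu1, hu2, hu3⟩
    have h4 : B ⊔ span F {u} ≤ (B ⊔ span F {v}) ⊓ U L w :=
      sup_le (le_inf le_sup_left hBw) ((span_singleton_le_iff_mem _ _).2 ⟨hu2, hu1⟩)
    have h5 := finrank_mono h4
    rw [finrank_sup_span hu3, hB2] at h5
    omega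
  -- uniqueness
  have huniq : ∀ v, v ∉ B → ∀ x ∈ B, x ≠ 0 → ∀ x' ∈ B, x' ≠ 0 → v ∈ U L x → v ∈ U L x' →
      span F {x'} = span F {x} := by
    intro v hv x hx hx0 x' hx' hx0' hvx hvx'
    by_cases hxx : x' ∈ span F {x}
    · exact span_eq_of_mem hx0' hxx
    · exfalso
      have hv0 : v ≠ 0 := fun h => hv (h ▸ zero_mem _)
      have e1 := line_eq hB2 hx hx' hx0 hxx
      obtain ⟨hE, ⟨w, hwE, hw, hwt⟩, _⟩ := hplane v hv
      have hEx : B ⊔ span F {v} ≤ U L x := sup_le (hBx x hx) ((span_singleton_le_iff_mem _ _).2 hvx)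
      have hEx' : B ⊔ span F {v} ≤ U L x' := sup_le (hBx x' hx') ((span_singleton_le_iff_mem _ _).2 hvx')
      have hBw : B ≤ U L w := by
        rw [← e1]
        exact sup_le ((span_singleton_le_iff_mem _ _).2 (D.symm hx0 hw (hEx hwE)))
          ((span_singleton_le_iff_mem _ _).2 (D.symm hx0' hw (hEx' hwE)))
      by_cases hwB : w ∈ B
      · have hBv : B ≤ U L v := by
          rw [← e1]
          exact sup_le ((span_singleton_le_iff_mem _ _).2 (D.symm hx0 hv0 hvx))
            ((span_singleton_le_iff_mem _ _).2 (D.symm hx0' hv0 hvx'))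
        exact hno v hv w hw hwt hBw ⟨v, D.symm hv0 hw (hBv hwB), mem_sup_right (mem_span_singleton_self v), hv⟩
      · exact hno v hv w hw hwt hBw ⟨w, D.self_mem hw, hwE, hwB⟩
  -- the count
  have h3 := dc (univ.filter fun v : V => v ∉ B) (cov ⊥ B) (fun v P => v ∈ Up L P)
    (Fintype.card F ^ d - Fintype.card F ^ 2) (by
      intro v hv
      have hv' : v ∉ B := (mem_filter.1 hv).2
      obtain ⟨hE, ⟨w, hwE, hw, hwt⟩, y, hyE, hy, hyt⟩ := hplane v hv'
      have hEy : B ⊔ span F {v} ≤ U L y := by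
        have h4 : (B ⊔ span F {v}) ⊓ U L y = B ⊔ span F {v} := eq_of_le_of_finrank_eq inf_le_left (by rw [hyt, hE])
        rw [← h4]
        exact inf_le_right
      have hyB : y ∈ B := by
        by_contra hyB
        have h5 : B ⊔ span F {y} = B ⊔ span F {v} := sup_span_eq hyE hyB
        have h6 : ∀ z ∈ B, z ≠ 0 → B ⊔ span F {v} ≤ U L z := by
          intro z hz hz0
          rw [← h5]
          exact sup_le (hBx z hz) ((span_singleton_le_iff_mem _ _).2 (D.symm hy hz0 (hEy (mem_sup_left hz))))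
        by_cases hwB : w ∈ B
        · have h7 : (B ⊔ span F {v}) ⊓ U L w = B ⊔ span F {v} := inf_eq_left.2 (h6 w hwB hw)
          rw [h7, hE] at hwt
          omega
        · refine hno v hv' w hw hwt ?_ ⟨w, D.self_mem hw, hwE, hwB⟩
          intro z hz
          by_cases hz0 : z = 0
          · rw [hz0]
            exact zero_mem _
          · exact D.symm hz0 hw (h6 z hz hz0 hwE)
      have hvy : v ∈ U L y := hEy (mem_sup_right (mem_span_singleton_self v))
      refine ⟨span F {y}, ⟨mem_points.2 ⟨y, hyB, hy, rfl⟩, hvy⟩, ?_⟩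
      rintro P ⟨hP, hvP⟩
      obtain ⟨x', hx', hx0', rfl⟩ := mem_points.1 hP
      exact huniq v hv' y hyB hy x' hx' hx0' hvy hvP) (by
      intro P hP
      obtain ⟨x, hx, hx0, rfl⟩ := mem_points.1 hP
      have h4 := card_compl (hBx x hx) hB2
      rw [D.fr x hx0] at h4
      rw [← h4, Nat.add_sub_cancel]
      rfl)
  rw [card_points hB2] at h3
  have hq := one_lt_q (F := F)
  have h4 := card_compl' hB2
  have h5 : Fintype.card F ^ 2 ≤ Fintype.card F ^ d := Nat.pow_le_pow_right (by omega) (by omega)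
  exact arith2 hq hn h1 _ _ h4 (Nat.sub_add_cancel h5) h3

/-- **The dimension of `U x` is `2` or `n - 1`.** -/
theorem Dat.dim (hn : 5 ≤ finrank F V) (h13 : nOrb H (Fl F V ![1, 3]) = 3) (h1 : 3 ≤ d) (h2 : d + 2 ≤ finrank F V) :
    False := by
  obtain ⟨B, hBL⟩ := D.hL.ex
  obtain ⟨x, _, hx0⟩ := exists_mem_ne_zero_of_ne_bot (ne_bot_of (D.hL.fr B hBL))
  obtain ⟨E, hE, hxE, ht⟩ := D.types h1 h2 hx0 2 (by norm_num) (by norm_num)
  have hE2 : has L E 2 := ⟨x, hxE, hx0, ht⟩
  rcases D.exists_not2 hE with hE1 | hE3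
  · apply D.opt1 hn h1
    intro E' hE'
    exact ⟨fun h => D.trans13 h13 h1 h2 hE hE' hE1 h hE2, fun h => D.trans13 h13 h1 h2 hE hE' hE2 h hE1⟩
  · apply D.opt2 hn h1
    intro E' hE'
    exact ⟨fun h => D.trans13 h13 h1 h2 hE hE' hE2 h hE3, fun h => D.trans13 h13 h1 h2 hE hE' hE3 h hE2⟩

end

end Cfsg.Agent.H87.Geo5
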