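import Cfsg.Agent.H87.HerA
import Cfsg.Agent.S0242
import Cfsg.Agent.LieClassical.SympCount

/-!
# Coprime action on Sylow subgroups and orders of classical groups
-/

set_option autoImplicit false
set_option linter.unusedSectionVars false

namespace Cfsg.Agent.H87.HerB

open Submodule Module
open scoped Pointwise

/-- an automorphism of prime order `r` of an `r'`-group normalises a Sylow subgroup. -/
theorem coprime {N : Type*} [Group N] [Finite N] (φ : MulAut N) {r : ℕ} (hr : r.Prime) (hφ : φ ^ r = 1)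
    (hrN : ¬ r ∣ Nat.card N) {l : ℕ} (hl : l.Prime) :
    ∃ P : Sylow l N, Nat.card P ≡ Nat.card {x : N // x ∈ P ∧ φ x = x} [MOD r] := by
  classical
  have hrf : Fact r.Prime := ⟨hr⟩
  have hlf : Fact l.Prime := ⟨hl⟩
  -- a fixed Sylow subgroup
  obtain ⟨P, hP⟩ : ∃ P : Sylow l N, φ • P = P := by
    let f : Function.End (Sylow l N) := fun P => φ • P
    have hf : f ^ r ^ 1 = 1 := by
      have h1 : ∀ (m : ℕ) (P : Sylow l N), (f ^ m) P = φ ^ m • P := by
        intro m
        induction m with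
        | zero =>
          intro P
          rw [pow_zero, pow_zero, one_smul]
          rfl
        | succ m ih =>
          intro P
          rw [pow_succ', pow_succ', mul_smul, ← ih]
          rfl
      funext P
      rw [h1, pow_one, hφ, one_smul]
      rfl
    have hfin : Fintype (Sylow l N) := Fintype.ofFinite _
    have h2 := Equiv.Perm.card_fixedPoints_modEq hf
    by_contra hcon
    push Not at hcon
    have h3 : Fintype.card ↥(Function.fixedPoints f) = 0 := by
      rw [Fintype.card_eq_zero_iff]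
      exact ⟨fun P => hcon P.1 P.2⟩
    rw [h3, Nat.modEq_zero_iff_dvd] at h2
    apply hrN
    have P : Sylow l N := default
    rw [← Nat.card_eq_fintype_card] at h2
    exact h2.trans (P.card_dvd_index.trans (Subgroup.index_dvd_card _))
  refine ⟨P, ?_⟩
  have hmem : ∀ x ∈ P, φ x ∈ P := by
    intro x hx
    rw [← hP]
    exact Subgroup.smul_mem_pointwise_smul x φ (P : Subgroup N) hx
  let f : Function.End P := fun x => ⟨φ x.1, hmem x.1 x.2⟩
  have hf : f ^ r ^ 1 = 1 := by
    have h1 : ∀ (m : ℕ) (x : P), ((f ^ m) x).1 = (φ ^ m) x.1 := by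
      intro m
      induction m with
      | zero =>
        intro x
        rw [pow_zero, pow_zero]
        rfl
      | succ m ih =>
        intro x
        rw [pow_succ', pow_succ', MulAut.mul_apply, ← ih]
        rfl
    funext x
    apply Subtype.ext
    rw [h1, pow_one, hφ]
    rfl
  have hfin : Fintype P := Fintype.ofFinite _
  have hfin2 : Fintype {x : N // x ∈ P ∧ φ x = x} := Fintype.ofFinite _
  have h2 := Equiv.Perm.card_fixedPoints_modEq hf
  rw [Nat.card_eq_fintype_card, Nat.card_eq_fintype_card]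
  refine h2.trans ?_
  have h5 : Fintype.card ↥(Function.fixedPoints f) = Fintype.card {x : N // x ∈ P ∧ φ x = x} := by
    refine Fintype.card_congr ⟨fun x => ⟨x.1.1, x.1.2, congrArg Subtype.val x.2⟩,
      fun x => ⟨⟨x.1, x.2.1⟩, Subtype.ext x.2.2⟩, fun x => rfl, fun x => rfl⟩
  rw [← h5]

theorem card_sylow {N : Type*} [Group N] [Finite N] {p : ℕ} [hp : Fact p.Prime] (P : Sylow p N) {c A k : ℕ}
    (h : c * Nat.card N = p ^ k * A) (hc : ¬ p ∣ c) (hA : ¬ p ∣ A) : Nat.card P = p ^ k := by
  rw [P.card_eq_multiplicity]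
  congr 1
  have hc0 : c ≠ 0 := fun h0 => hc (h0 ▸ dvd_zero p)
  have hA0 : A ≠ 0 := fun h0 => hA (h0 ▸ dvd_zero p)
  have h1 : (c * Nat.card N).factorization p = (p ^ k * A).factorization p := by rw [h]
  rw [Nat.factorization_mul hc0 Nat.card_pos.ne', Nat.factorization_mul (pow_ne_zero _ hp.out.ne_zero) hA0,
    Finsupp.add_apply, Finsupp.add_apply, Nat.factorization_eq_zero_of_not_dvd hc,
    Nat.factorization_eq_zero_of_not_dvd hA, hp.out.factorization_pow, Finsupp.single_eq_same] at h1
  omega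

theorem not_dvd_pow_sub_one {p q j : ℕ} (hp : p.Prime) (hq : p ∣ q) (hj : j ≠ 0) (hq1 : 1 ≤ q) : ¬ p ∣ q ^ j - 1 := by
  intro h
  have h1 : p ∣ q ^ j := hq.trans (dvd_pow_self q hj)
  have h2 : 1 ≤ q ^ j := Nat.one_le_pow _ _ hq1
  have h3 := (Nat.dvd_sub_iff_right h2 h1).1 h
  exact hp.one_lt.ne' (Nat.dvd_one.1 h3)

/-- the order of the special linear group, with the power of `q` separated. -/
theorem card_sl {F : Type*} [Field F] [Fintype F] (a : ℕ) (ha : 1 ≤ a) :
    (Fintype.card F - 1) * Nat.card (Matrix.SpecialLinearGroup (Fin a) F) =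
      Fintype.card F ^ (a * (a - 1) / 2) * ∏ i ∈ Finset.range a, (Fintype.card F ^ (i + 1) - 1) := by
  rw [S0242.result rfl a ha, Fin.prod_univ_eq_prod_range (fun i => Fintype.card F ^ a - Fintype.card F ^ i) a]
  have h1 : ∀ i ∈ Finset.range a, Fintype.card F ^ a - Fintype.card F ^ i =
      Fintype.card F ^ i * (Fintype.card F ^ (a - i) - 1) := by
    intro i hi
    rw [Finset.mem_range] at hi
    rw [Nat.mul_sub, mul_one, ← pow_add, Nat.add_sub_cancel' hi.le]
  rw [Finset.prod_congr rfl h1, Finset.prod_mul_distrib, Finset.prod_pow_eq_pow_sum, Finset.sum_range_id]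
  congr 1
  rw [← Finset.prod_range_reflect]
  apply Finset.prod_congr rfl
  intro i hi
  rw [Finset.mem_range] at hi
  congr 2
  omega

theorem not_dvd_prod {p q : ℕ} (hp : p.Prime) (hq : p ∣ q) (hq1 : 1 ≤ q) (s : Finset ℕ) (f : ℕ → ℕ) (hf : ∀ i ∈ s, f i ≠ 0) :
    ¬ p ∣ ∏ i ∈ s, (q ^ f i - 1) := by
  rw [hp.prime.dvd_finsetProd_iff]
  rintro ⟨i, hi, h⟩
  exact not_dvd_pow_sub_one hp hq (hf i hi) hq1 h

end Cfsg.Agent.H87.HerB
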