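import Cfsg.Agent.H87.Red
import Cfsg.Agent.H87.Geo5e
import Cfsg.Agent.H87.HerD

/-!
# Primitive rank 3 actions of `SL_n(q)`, `n ≥ 5`
-/

set_option autoImplicit false
set_option linter.unusedSectionVars false

namespace Cfsg.Agent.H87.RankThree

open scoped MatrixGroups Pointwise
open Finset MulAction Matrix Module Cfsg.Agent.H87.Orb Cfsg.Agent.H87.SLInner Cfsg.Agent.H87.Flags
open Cfsg.Agent.H139.BlockCount Cfsg.Agent.H87.FlagsGL Cfsg.Agent.H87.MargCount Cfsg.Agent.H87.Types
open Cfsg.Agent.H87.Geo3

variable {F : Type*} [Field F] {n : ℕ}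

instance : FaithfulSMul (SpecialLinearGroup (Fin n) F) (Vec F n) where
  eq_of_smul_eq_smul := by
    intro g h hgh
    apply SpecialLinearGroup.toGL_injective
    apply Units.ext
    apply Matrix.mulVec_injective
    funext v
    have := congrArg (co (F := F) (n := n)) (hgh (co.symm v))
    rwa [co_smul', co_smul', LinearEquiv.apply_symm_apply] at this

/-- a group with three orbits one of which is a point. -/
theorem card_le_of_three {G X : Type*} [Group G] [Finite G] [MulAction G X] [Finite X] {x : X}
    (hx : ∀ g : G, g • x = x) (h3 : nOrb G X = 3) : Nat.card X ≤ 1 + 2 * Nat.card G := by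
  classical
  have : Fintype X := Fintype.ofFinite X
  obtain ⟨c, hs, hc⟩ := exists_class h3
  have h1 := card_eq_sum_card_fiberwise (f := c) (s := (univ : Finset X)) (t := (univ : Finset (Fin 3)))
    (fun _ _ => mem_univ _)
  have h2 : ∀ t : Fin 3, (univ.filter fun y : X => c y = t).card ≤ Nat.card G := by
    intro t
    obtain ⟨b, hb⟩ := hs t
    have h4 : Nat.card {y : X // c y = t} ≤ Nat.card G := by
      apply Nat.card_le_card_of_surjective (fun g : G => (⟨g • b, by rw [← hb, hc]; exact ⟨g, rfl⟩⟩ : {y : X // c y = t}))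
      rintro ⟨y, hy⟩
      rw [← hb, hc] at hy
      obtain ⟨g, hg⟩ := hy
      exact ⟨g, Subtype.ext hg⟩
    rwa [Nat.card_eq_fintype_card, Fintype.card_subtype] at h4
  have h3' : (univ.filter fun y : X => c y = c x).card = 1 := by
    rw [card_eq_one]
    refine ⟨x, ?_⟩
    ext y
    simp only [mem_filter, mem_univ, true_and, mem_singleton]
    rw [hc]
    constructor
    · rintro ⟨g, hg⟩
      rw [← hg, hx]
    · rintro rfl
      exact ⟨1, one_smul G y⟩
  rw [card_univ, ← Nat.card_eq_fintype_card] at h1
  rw [h1]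
  rw [← add_sum_erase univ _ (mem_univ (c x))]
  change (univ.filter fun y : X => c y = c x).card + _ ≤ _
  rw [h3']
  refine Nat.add_le_add_left ?_ 1
  refine (sum_le_card_nsmul _ _ (Nat.card G) (fun t _ => h2 t)).trans ?_
  rw [card_erase_of_mem (mem_univ _), card_univ, Fintype.card_fin, smul_eq_mul]

universe u

theorem main {F : Type u} [Field F] {n : ℕ} [Fintype F] [Fintype (SpecialLinearGroup (Fin n) F)]
    {X : Type*} [MulAction (SpecialLinearGroup (Fin n) F) X] [Finite X]
    [IsPretransitive (SpecialLinearGroup (Fin n) F) X] (hering : HerC.Hering.{u, u}) (hn : 5 ≤ n) (x : X) (h3 : nOrb (stabilizer (SpecialLinearGroup (Fin n) F) x) X = 3)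
    (hmax : IsCoatom (stabilizer (SpecialLinearGroup (Fin n) F) x)) :
    Nat.card X = Nat.card (Co F (comp n [2, 0, n - 2])) := by
  classical
  have hV : finrank F (Vec F n) = n := finrank_vec
  rcases Spectrum.spectrum (F := F) hn x h3 with h | ⟨_, h⟩ | ⟨a, b, c⟩ | ⟨a, b, c, d, e⟩ | ⟨a, b⟩
  · exact h
  · rcases SylP.reducible (show 2 ≤ n by omega) x h with h | ⟨U, hU0, hU1, hU⟩
    · exact absurd h hmax.1
    · exact Red.red hn x h3 hmax hU0 hU1 hU
  · obtain ⟨U, hU0, hU1, hU⟩ := geo3 (F := F) (V := Vec F n) (H := stabilizer (SpecialLinearGroup (Fin n) F) x)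
      (by rw [hV]; omega) a b c
    exact Red.red hn x h3 hmax hU0 hU1 fun h hh => hU ⟨h, hh⟩
  · exfalso
    refine Geo5.geo5 (F := F) (V := Vec F n) (H := stabilizer (SpecialLinearGroup (Fin n) F) x)
      (by rw [hV]; omega) a b c d ?_
    rw [hV]
    exact e
  · exfalso
    have hK := Subgroup.card_mul_index (stabilizer (SpecialLinearGroup (Fin n) F) x)
    have hX : (stabilizer (SpecialLinearGroup (Fin n) F) x).index = Nat.card X :=
      index_stabilizer_of_transitive _ x
    refine HerC.her (F := F) (V := Vec F n) (K := stabilizer (SpecialLinearGroup (Fin n) F) x) (n := n) hering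
      ⟨hn, hV, ?_, ?_, ?_, ?_⟩
    · intro v w hv hw
      obtain ⟨g, hg⟩ := pretransitive_of_nOrb a (pt (F := F) v hv) (pt w hw)
      have e : g • Submodule.span F {v} = Submodule.span F {w} := congrArg (fun W => W.1 0) hg
      have h1 : g • v ∈ Submodule.span F {w} := by
        rw [← e]
        exact Flags.smul_mem_smul.2 (Submodule.mem_span_singleton_self v)
      obtain ⟨c, hc⟩ := Submodule.mem_span_singleton.1 h1
      exact ⟨g, c, hc.symm⟩
    · intro r P
      have hfl : Nat.card (Fl F (Vec F n) ![2]) = Nat.card (Co F (comp n [2, 0, n - 2])) :=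
        (Nat.card_congr (Equiv.ofBijective _ (coMap_bijective (m2 (by omega))))).symm
      have h1 := Spectrum.card_t2 (F := F) hn
      rw [← hfl] at h1
      have h2 : r ∣ Nat.card (Fl F (Vec F n) ![2]) * ((Fintype.card F ^ 2 - 1) * (Fintype.card F - 1)) := by
        rw [h1]
        exact Dvd.dvd.mul_left P.dvd' _
      have h4 : r ∣ Nat.card (Fl F (Vec F n) ![2]) := by
        rcases P.prime.dvd_mul.1 h2 with h4 | h4
        · exact h4
        · exfalso
          rcases P.prime.dvd_mul.1 h4 with h5 | h5
          · have := Nat.le_of_dvd (by norm_num) (P.dvd 2 h5)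
            omega
          · rw [← pow_one (Fintype.card F)] at h5
            have := Nat.le_of_dvd (by norm_num) (P.dvd 1 h5)
            omega
      refine h4.trans ?_
      have hpre : IsPretransitive (stabilizer (SpecialLinearGroup (Fin n) F) x) (Fl F (Vec F n) ![2]) :=
        ⟨pretransitive_of_nOrb b⟩
      have hne : Nonempty (Fl F (Vec F n) ![2]) := by
        have h0 : 0 < Nat.card (Fl F (Vec F n) ![2]) := by
          rw [hfl]
          exact Nat.card_pos
        exact (Nat.card_pos_iff.1 h0).1
      obtain ⟨W⟩ := hne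
      rw [← index_stabilizer_of_transitive (stabilizer (SpecialLinearGroup (Fin n) F) x) W]
      exact Subgroup.index_dvd_card _
    · have h1 : 1 < Nat.card X := by
        rw [← hX]
        exact (Subgroup.one_lt_index_of_ne_top hmax.1)
      rw [← hK, hX]
      have h2 : 0 < Nat.card (stabilizer (SpecialLinearGroup (Fin n) F) x) := Nat.card_pos
      nlinarith
    · rw [← hK, hX]
      exact Nat.mul_le_mul_left _ (card_le_of_three (x := x) (fun g => g.2) h3)

/-- **Primitive rank 3 actions of `PSL_n(q)`, `n ≥ 5`**, from Hering's theorem. -/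
theorem result_of {G X : Type*} [Group G] [Finite G] [MulAction G X] [FaithfulSMul G X] [Fintype X] {F : Type u}
    [Field F] [Fintype F] (hering : HerC.Hering.{u, u}) (n : ℕ) (hn : 5 ≤ n)
    (e : G ≃* Matrix.ProjectiveSpecialLinearGroup (Fin n) F)
    (hprim : MulAction.IsPreprimitive G X) (x : X)
    (h3 : Nat.card (MulAction.orbitRel.Quotient ↥(MulAction.stabilizer G x) X) = 3) :
    Fintype.card X * ((Fintype.card F ^ 2 - 1) * (Fintype.card F - 1)) =
      (Fintype.card F ^ n - 1) * (Fintype.card F ^ (n - 1) - 1) := by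
  classical
  have hfin : Finite (Matrix.SpecialLinearGroup (Fin n) F) := inferInstance
  let _ : Fintype (Matrix.SpecialLinearGroup (Fin n) F) := Fintype.ofFinite _
  -- the projection
  let φ : Matrix.SpecialLinearGroup (Fin n) F →* G :=
    e.symm.toMonoidHom.comp (QuotientGroup.mk' (Subgroup.center (Matrix.SpecialLinearGroup (Fin n) F)))
  have hφ : Function.Surjective φ := e.symm.surjective.comp (QuotientGroup.mk'_surjective _)
  let _ : MulAction (Matrix.SpecialLinearGroup (Fin n) F) X := MulAction.compHom X φ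
  have hsm : ∀ (s : Matrix.SpecialLinearGroup (Fin n) F) (y : X), s • y = φ s • y := fun _ _ => rfl
  have htr : IsPretransitive G X := hprim.toIsPretransitive
  have htr' : IsPretransitive (Matrix.SpecialLinearGroup (Fin n) F) X := by
    refine ⟨fun y z => ?_⟩
    obtain ⟨g, hg⟩ := exists_smul_eq G y z
    obtain ⟨s, rfl⟩ := hφ g
    exact ⟨s, hg⟩
  have hprim' : IsPreprimitive (Matrix.SpecialLinearGroup (Fin n) F) X :=
    (isPreprimitive_congr (φ := φ) hφ (f := (⟨id, fun _ _ => rfl⟩ : X →ₑ[φ] X)) Function.bijective_id).2 hprim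
  -- three orbits
  have h3' : nOrb (stabilizer (Matrix.SpecialLinearGroup (Fin n) F) x) X = 3 := by
    have h4 : nOrb (stabilizer (Matrix.SpecialLinearGroup (Fin n) F) x) X = nOrb (stabilizer G x) X := by
      apply nOrb_congr (Equiv.refl X)
      intro y y'
      constructor
      · rintro ⟨⟨s, hs⟩, h⟩
        exact ⟨⟨φ s, hs⟩, h⟩
      · rintro ⟨⟨g, hg⟩, h⟩
        obtain ⟨s, rfl⟩ := hφ g
        exact ⟨⟨s, hg⟩, h⟩
    rw [h4]
    exact h3
  have hnt : Nontrivial X := by
    by_contra hcon
    rw [not_nontrivial_iff_subsingleton] at hcon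
    have h4 : Nat.card (orbitRel.Quotient ↥(stabilizer G x) X) ≤ Nat.card X :=
      Nat.card_le_card_of_surjective (Quotient.mk _) Quotient.mk_surjective
    rw [h3] at h4
    have h5 : Nat.card X ≤ 1 := Finite.card_le_one_iff_subsingleton.2 hcon
    omega
  have hmax : IsCoatom (stabilizer (Matrix.SpecialLinearGroup (Fin n) F) x) :=
    IsPreprimitive.isCoatom_stabilizer_of_isPreprimitive (Matrix.SpecialLinearGroup (Fin n) F) x
  have h4 := main hering hn x h3' hmax
  have h5 := Spectrum.card_t2 (F := F) hn
  rw [← h4, Nat.card_eq_fintype_card] at h5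
  exact h5


end Cfsg.Agent.H87.RankThree
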