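import Cfsg.Agent.H87.FlagsGL
import Cfsg.Agent.LieClassical.SLGen

/-!
# Subgroups of `SL_n(q)` of index prime to `p`

`reducible` : a point stabiliser in a transitive action of degree prime to `p` is the whole group or leaves a proper
subspace invariant; `eq_top_of_spanning` : a subgroup containing the transvection groups of a spanning set of centres.
-/

set_option autoImplicit false
set_option linter.unusedSectionVars false

namespace Cfsg.Agent.H87.SylP

open scoped MatrixGroups Pointwise
open Finset MulAction Matrix Module Cfsg.Agent.H87.FlagsGL Cfsg.Agent.H87.Flags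

variable {F : Type*} [Field F] {n : ℕ}

theorem sl_ext {g h : SpecialLinearGroup (Fin n) F} (e : ∀ v : Vec F n, g • v = h • v) : g = h := by
  apply Subtype.ext
  refine Matrix.ext_of_mulVec_single fun i => ?_
  have h1 := congrArg co (e (co.symm (Pi.single i 1)))
  rwa [co_smul', co_smul', LinearEquiv.apply_symm_apply] at h1

/-- the transvections with centre `y`. -/
def Q (y : Vec F n) : Subgroup (SpecialLinearGroup (Fin n) F) where
  carrier := {g | ∃ f : Vec F n →ₗ[F] F, f y = 0 ∧ ∀ v, g • v = v + f v • y}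
  one_mem' := ⟨0, rfl, fun v => by simp⟩
  mul_mem' := by
    rintro g h ⟨f, hf, eg⟩ ⟨f', hf', eh⟩
    refine ⟨f + f', by simp [hf, hf'], fun v => ?_⟩
    rw [mul_smul, eh, eg, map_add, map_smul, hf, smul_zero, add_zero, LinearMap.add_apply, add_smul]
    abel
  inv_mem' := by
    rintro g ⟨f, hf, eg⟩
    refine ⟨-f, by simp [hf], fun v => ?_⟩
    rw [inv_smul_eq_iff, eg, map_add, map_smul, hf, smul_zero, add_zero, LinearMap.neg_apply, neg_smul]
    abel

theorem mem_Q {y : Vec F n} {g : SpecialLinearGroup (Fin n) F} :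
    g ∈ Q y ↔ ∃ f : Vec F n →ₗ[F] F, f y = 0 ∧ ∀ v, g • v = v + f v • y := Iff.rfl

theorem pow_smul_eq {y : Vec F n} {g : SpecialLinearGroup (Fin n) F} {f : Vec F n →ₗ[F] F} (hf : f y = 0)
    (h : ∀ v, g • v = v + f v • y) (k : ℕ) (v : Vec F n) : g ^ k • v = v + ((k : F) * f v) • y := by
  induction k with
  | zero => simp
  | succ k ih =>
    rw [pow_succ', mul_smul, ih, h, map_add, map_smul, hf]
    push_cast
    rw [smul_zero, add_zero, add_mul, one_mul, add_smul]
    abel

theorem isPGroup_Q {p : ℕ} [Fact p.Prime] [CharP F p] (y : Vec F n) : IsPGroup p (Q y) := by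
  rintro ⟨g, f, hf, hg⟩
  refine ⟨1, Subtype.ext (sl_ext fun v => ?_)⟩
  rw [pow_one]
  change g ^ p • v = (1 : SpecialLinearGroup (Fin n) F) • v
  rw [pow_smul_eq hf hg, CharP.cast_eq_zero, zero_mul, zero_smul, add_zero, one_smul]

/-- transvections exist. -/
theorem exists_tv {y : Vec F n} {f : Vec F n →ₗ[F] F} (hf : f y = 0) :
    ∃ g : SpecialLinearGroup (Fin n) F, ∀ v, g • v = v + f v • y := by
  let w : Fin n → F := fun j => f (co.symm (Pi.single j 1))
  have hw : ∀ v : Vec F n, w ⬝ᵥ co v = f v := by
    intro v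
    have h1 : co v = ∑ j, (co v j) • (Pi.single j 1 : Fin n → F) := by
      rw [← pi_eq_sum_univ' (co v)]
    have h2 : v = ∑ j, (co v j) • (co.symm (Pi.single j 1) : Vec F n) := by
      apply co_injective
      rw [map_sum]
      simp only [map_smul, LinearEquiv.apply_symm_apply]
      exact h1
    conv_rhs => rw [h2, map_sum]
    rw [dotProduct]
    apply sum_congr rfl
    intro j _
    rw [map_smul, smul_eq_mul, mul_comm]
  let M : Matrix (Fin n) (Fin n) F := 1 + Matrix.replicateCol Unit (co y) * Matrix.replicateRow Unit w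
  have hM : M.det = 1 := by
    have h1 := Matrix.det_one_add_replicateCol_mul_replicateRow (ι := Unit) (co y) w
    rw [hw y, hf, add_zero] at h1
    exact h1
  let g : SpecialLinearGroup (Fin n) F := ⟨M, hM⟩
  refine ⟨g, fun v => ?_⟩
  apply co_injective
  rw [co_smul', map_add, map_smul]
  change (1 + Matrix.replicateCol Unit (co y) * Matrix.replicateRow Unit w) *ᵥ co v = _
  rw [Matrix.add_mulVec, Matrix.one_mulVec, ← Matrix.mulVec_mulVec]
  congr 1
  have h3 : Matrix.replicateRow Unit w *ᵥ co v = fun _ => f v := by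
    funext _
    rw [← hw v]
    rfl
  rw [h3]
  funext i
  simp [Matrix.mulVec, dotProduct, mul_comm]

theorem conj_mem_Q {y : Vec F n} {g k : SpecialLinearGroup (Fin n) F} (h : g ∈ Q (k • y)) : k⁻¹ * g * k ∈ Q y := by
  obtain ⟨f, hf, hg⟩ := h
  refine ⟨f ∘ₗ (DistribSMul.toLinearMap F (Vec F n) k), hf, fun v => ?_⟩
  rw [mul_smul, mul_smul, hg, smul_add, inv_smul_smul, smul_comm, inv_smul_smul]
  rfl

/-- a subgroup containing the transvections with a spanning set of centres is everything. -/
theorem eq_top_of_spanning (K : Subgroup (SpecialLinearGroup (Fin n) F))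
    (h : Submodule.span F {y : Vec F n | Q y ≤ K} = ⊤) : K = ⊤ := by
  classical
  -- a basis of centres
  let b0 := Basis.ofSpan (K := F) (s := {y : Vec F n | Q y ≤ K}) h.ge
  have : Fintype (↑((linearIndepOn_empty F (id : Vec F n → Vec F n)).extend (Set.empty_subset {y : Vec F n | Q y ≤ K}))) :=
    FiniteDimensional.fintypeBasisIndex b0
  let e : _ ≃ Fin n := Fintype.equivFinOfCardEq (by
    rw [← finrank_eq_card_basis b0, finrank_vec])
  let b : Basis (Fin n) F (Vec F n) := b0.reindex e
  have hb : ∀ i, Q (b i) ≤ K := by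
    intro i
    have h1 : b i ∈ {y : Vec F n | Q y ≤ K} := by
      apply Basis.ofSpan_subset h.ge
      rw [Basis.reindex_apply]
      exact Set.mem_range_self _
    exact h1
  -- the matrix of the basis
  obtain ⟨P, hP⟩ := exists_gl ((co (F := F) (n := n)) ≪≫ₗ (Basis.equivFun b).symm)
  have hPe : ∀ v : Vec F n, P • v = ∑ i, (co v i) • b i := by
    intro v
    rw [hP]
    change (Basis.equivFun b).symm (co v) = _
    rw [Basis.equivFun_symm_apply]
  -- conjugating
  have hdet : ∀ T : SpecialLinearGroup (Fin n) F,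
      ((P * (SpecialLinearGroup.toGL T) * P⁻¹ : GL (Fin n) F) : Matrix (Fin n) (Fin n) F).det = 1 := by
    intro T
    rw [← GeneralLinearGroup.val_det_apply, map_mul, map_mul, map_inv, mul_inv_cancel_comm,
      GeneralLinearGroup.val_det_apply]
    exact T.2
  have hdet' : ∀ T : SpecialLinearGroup (Fin n) F,
      ((P⁻¹ * (SpecialLinearGroup.toGL T) * P : GL (Fin n) F) : Matrix (Fin n) (Fin n) F).det = 1 := by
    intro T
    have h1 : GeneralLinearGroup.det (P⁻¹ * (SpecialLinearGroup.toGL T) * P) =
        GeneralLinearGroup.det (SpecialLinearGroup.toGL T) := by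
      rw [map_mul, map_mul, map_inv, mul_comm (GeneralLinearGroup.det P)⁻¹, inv_mul_cancel_right]
    rw [← GeneralLinearGroup.val_det_apply, h1, GeneralLinearGroup.val_det_apply]
    exact T.2
  let cj : SpecialLinearGroup (Fin n) F →* SpecialLinearGroup (Fin n) F :=
    { toFun := fun T => ⟨((P * (SpecialLinearGroup.toGL T) * P⁻¹ : GL (Fin n) F) : Matrix (Fin n) (Fin n) F), hdet T⟩
      map_one' := by
        apply Subtype.ext
        change ((P * (SpecialLinearGroup.toGL 1) * P⁻¹ : GL (Fin n) F) : Matrix (Fin n) (Fin n) F) = 1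
        rw [map_one, mul_one, mul_inv_cancel, Units.val_one]
      map_mul' := by
        intro S T
        apply Subtype.ext
        change ((P * (SpecialLinearGroup.toGL (S * T)) * P⁻¹ : GL (Fin n) F) : Matrix (Fin n) (Fin n) F) =
          ((P * (SpecialLinearGroup.toGL S) * P⁻¹ : GL (Fin n) F) : Matrix (Fin n) (Fin n) F) *
          ((P * (SpecialLinearGroup.toGL T) * P⁻¹ : GL (Fin n) F) : Matrix (Fin n) (Fin n) F)
        rw [← Units.val_mul, map_mul]
        congr 1
        group }
  have hcjGL : ∀ T, (SpecialLinearGroup.toGL (cj T) : GL (Fin n) F) = P * (SpecialLinearGroup.toGL T) * P⁻¹ := by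
    intro T
    apply Units.ext
    rfl
  have h1 : K.comap cj = ⊤ := by
    rw [eq_top_iff, ← LieClassical.SLGen.closure_transvections, Subgroup.closure_le]
    rintro _ ⟨i, j, hij, c, rfl⟩
    change cj _ ∈ K
    apply hb i
    refine ⟨c • (b.coord j), ?_, fun v => ?_⟩
    · rw [LinearMap.smul_apply, Basis.coord_apply, Basis.repr_self, Finsupp.single_eq_of_ne (Ne.symm hij), smul_zero]
    · rw [sl_smul_eq, hcjGL, mul_smul, mul_smul]
      have h2 : ∀ w : Vec F n, (SpecialLinearGroup.toGL (SpecialLinearGroup.transvection hij c) : GL (Fin n) F) • w =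
          w + (c * co w j) • (co.symm (Pi.single i 1) : Vec F n) := by
        intro w
        apply co_injective
        rw [co_smul, map_add, map_smul, LinearEquiv.apply_symm_apply]
        have h3 := LieClassical.SLGen.transvection_smul hij c (co w)
        exact h3
      rw [h2, smul_add, smul_inv_smul, smul_comm]
      congr 1
      have h3 : P • (co.symm (Pi.single i 1) : Vec F n) = b i := by
        rw [hPe, LinearEquiv.apply_symm_apply, sum_eq_single i]
        · rw [Pi.single_eq_same, one_smul]
        · intro k _ hk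
          rw [Pi.single_eq_of_ne hk, zero_smul]
        · intro hk
          exact absurd (mem_univ i) hk
      rw [h3]
      congr 1
      rw [LinearMap.smul_apply, Basis.coord_apply, smul_eq_mul]
      congr 1
      have h4 : v = ∑ k, (co (P⁻¹ • v) k) • b k := by
        rw [← hPe, smul_inv_smul]
      conv_rhs => rw [h4]
      rw [Basis.repr_sum_self]
  rw [eq_top_iff]
  intro g _
  let g' : SpecialLinearGroup (Fin n) F :=
    ⟨((P⁻¹ * (SpecialLinearGroup.toGL g) * P : GL (Fin n) F) : Matrix (Fin n) (Fin n) F), hdet' g⟩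
  have h2 : g' ∈ K.comap cj := by
    rw [h1]
    exact Subgroup.mem_top _
  have h3 : cj g' = g := by
    apply Subtype.ext
    have h4 : (SpecialLinearGroup.toGL g' : GL (Fin n) F) = P⁻¹ * (SpecialLinearGroup.toGL g) * P := Units.ext rfl
    change ((P * (SpecialLinearGroup.toGL g') * P⁻¹ : GL (Fin n) F) : Matrix (Fin n) (Fin n) F) = _
    rw [h4]
    have h5 : P * (P⁻¹ * (SpecialLinearGroup.toGL g) * P) * P⁻¹ = (SpecialLinearGroup.toGL g : GL (Fin n) F) := by
      group
    rw [h5]
    rfl
  rw [← h3]
  exact h2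

/-- **Point stabilisers in transitive actions of degree `1` modulo `q`.** -/
theorem reducible [Fintype F] (hn : 2 ≤ n) {X : Type*} [MulAction (SpecialLinearGroup (Fin n) F) X] [Finite X]
    [IsPretransitive (SpecialLinearGroup (Fin n) F) X] (x : X) (hX : Nat.card X ≡ 1 [MOD Fintype.card F]) :
    stabilizer (SpecialLinearGroup (Fin n) F) x = ⊤ ∨
      ∃ U : Submodule F (Vec F n), U ≠ ⊥ ∧ U ≠ ⊤ ∧
        ∀ h ∈ stabilizer (SpecialLinearGroup (Fin n) F) x, h • U = U := by
  classical
  set K := stabilizer (SpecialLinearGroup (Fin n) F) x with hK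
  obtain ⟨p, hp⟩ := CharP.exists F
  have hpp : p.Prime := CharP.char_is_prime F p
  have : Fact p.Prime := ⟨hpp⟩
  have hpX : ¬ p ∣ Nat.card X := by
    intro h
    have h1 : p ∣ Fintype.card F := by
      obtain ⟨k, _, hk⟩ := FiniteField.card F p
      rw [hk]
      exact dvd_pow_self p k.2.ne'
    have h2 : Nat.card X ≡ 1 [MOD p] := hX.of_dvd h1
    have h3 := (h2.symm.trans ((Nat.modEq_zero_iff_dvd).2 h))
    have h4 := (Nat.modEq_zero_iff_dvd).1 h3
    exact hpp.one_lt.ne' (Nat.dvd_one.1 h4)
  have hne : ∃ y : Vec F n, y ≠ 0 := by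
    have : Nontrivial (Vec F n) := by
      apply nontrivial_of_finrank_pos (R := F)
      rw [finrank_vec]
      omega
    exact exists_ne 0
  obtain ⟨y, hy⟩ := hne
  obtain ⟨x', hx'⟩ := (isPGroup_Q (F := F) (n := n) (p := p) y).nonempty_fixed_point_of_prime_not_dvd_card X hpX
  obtain ⟨g, hg⟩ := exists_smul_eq (SpecialLinearGroup (Fin n) F) x x'
  have hQ : Q (g⁻¹ • y) ≤ K := by
    intro h hh
    have h1 : g * h * g⁻¹ ∈ Q y := by
      have := conj_mem_Q (k := g⁻¹) hh
      rwa [inv_inv] at this
    have h2 := hx' ⟨_, h1⟩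
    change (g * h * g⁻¹) • x' = x' at h2
    rw [← hg, mul_smul, mul_smul, inv_smul_smul, smul_left_cancel_iff] at h2
    exact h2
  set W := Submodule.span F {y : Vec F n | Q y ≤ K} with hW
  by_cases hWtop : W = ⊤
  · left
    exact eq_top_of_spanning K hWtop
  · right
    refine ⟨W, ?_, hWtop, ?_⟩
    · intro h
      have h1 : g⁻¹ • y ∈ W := Submodule.subset_span hQ
      rw [h, Submodule.mem_bot, smul_eq_zero_iff_eq] at h1
      exact hy h1
    · have key : ∀ h ∈ K, W ≤ h • W := by
        intro h hh
        rw [hW, Submodule.span_le]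
        intro z hz
        change z ∈ h • W
        rw [mem_smul_iff]
        apply Submodule.subset_span
        intro k hk
        have h1 : h * k * h⁻¹ ∈ Q z := by
          have := conj_mem_Q (k := h⁻¹) hk
          rwa [inv_inv] at this
        have h2 := hz h1
        have h3 := K.mul_mem (K.mul_mem (K.inv_mem hh) h2) hh
        rwa [show h⁻¹ * (h * k * h⁻¹) * h = k by group] at h3
      intro h hh
      exact (Submodule.eq_of_le_of_finrank_eq (key h hh) (Flags.finrank_smul h W).symm).symm

end Cfsg.Agent.H87.SylP
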