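import Cfsg.Agent.H87.Spectrum
import Cfsg.Agent.H87.Geo3
import Cfsg.Agent.H87.SylP

/-!
# Rank 3 actions of `SL_n(q)` with a reducible point stabiliser

`red` : if the point stabiliser is maximal and leaves a proper subspace invariant, the degree is the number of lines.
-/

set_option autoImplicit false
set_option linter.unusedSectionVars false

namespace Cfsg.Agent.H87.Red

open scoped MatrixGroups Pointwise
open Finset MulAction Matrix Module Cfsg.Agent.H87.Orb Cfsg.Agent.H87.SLInner Cfsg.Agent.H87.Flags
open Cfsg.Agent.H139.BlockCount Cfsg.Agent.H87.FlagsGL Cfsg.Agent.H87.MargCount Cfsg.Agent.H87.Types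
open Cfsg.Agent.H87.Spectrum Cfsg.Agent.H87.Cov

theorem pc_eq_of_stabilizer {G X Y : Type*} [Group G] [MulAction G X] [MulAction G Y] [IsPretransitive G X]
    [IsPretransitive G Y] (x : X) (y : Y) (h : stabilizer G x = stabilizer G y) : pc G X = pc G Y := by
  classical
  have h1 : ∀ x' : X, ∃ g : G, g • x = x' := fun x' => exists_smul_eq G x x'
  choose f hf using h1
  have h2 : ∀ g g' : G, g • x = g' • x ↔ g • y = g' • y := by
    intro g g'
    have e1 : g • x = g' • x ↔ g'⁻¹ * g ∈ stabilizer G x := by
      rw [mem_stabilizer_iff, mul_smul, inv_smul_eq_iff]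
    have e2 : g • y = g' • y ↔ g'⁻¹ * g ∈ stabilizer G y := by
      rw [mem_stabilizer_iff, mul_smul, inv_smul_eq_iff]
    rw [e1, e2, h]
  have h3 : ∀ g : G, f (g • x) • y = g • y := fun g => (h2 _ _).1 (hf (g • x))
  refine pc_congr (Equiv.ofBijective (fun x' => f x' • y) ⟨?_, ?_⟩) ?_
  · intro a b hab
    rw [← hf a, ← hf b]
    exact (h2 _ _).2 hab
  · intro y'
    obtain ⟨g, rfl⟩ := exists_smul_eq G y y'
    exact ⟨g • x, h3 g⟩
  · intro g x'
    change f (g • x') • y = g • f x' • y
    rw [← mul_smul]
    apply (h2 _ _).1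
    rw [hf, mul_smul, hf]

variable {F : Type*} [Field F] {n : ℕ} [Fintype F] [Fintype (SpecialLinearGroup (Fin n) F)]

theorem mm (hn : 4 ≤ n) {m : ℕ} (hm : m ≤ n) : Matches (comp n [m, 0, n - m]) ![m] := by
  apply matches_of hn _ (by simp) (by simp; omega)
  · intro i j _; fin_cases i; fin_cases j; rfl
  · intro i; fin_cases i; simpa using hm
  · intro j hj; interval_cases j <;> simp <;> omega
  · intro i; fin_cases i; exact ⟨1, by omega, by simp⟩

theorem sl_fl_transitive (hn : 4 ≤ n) {k : ℕ} {d : Fin k → ℕ} {a : Fin n → ℕ} (M : Matches a d) (W W' : Fl F (Vec F n) d) :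
    ∃ g : SpecialLinearGroup (Fin n) F, g • W = W' := by
  obtain ⟨y, hy⟩ := (coMap_bijective (F := F) M).2 W
  obtain ⟨y', hy'⟩ := (coMap_bijective (F := F) M).2 W'
  obtain ⟨g, hg⟩ := sl_transitive (by omega) a y y'
  refine ⟨g, ?_⟩
  rw [← hy, ← hy', ← hg]
  exact (coMap_smul M _ y).symm

theorem theta_swap (hn : 4 ≤ n) : theta F (comp n [n - 1, 0, 1]) = t1 F n := by
  have h1 := Uni.theta_comp (F := F) (n := n) (by omega) (m1 (by omega)).sum (Equiv.swap ⟨0, by omega⟩ ⟨2, by omega⟩)
  rw [t1, ← h1]
  congr 1
  funext i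
  rw [Function.comp_apply]
  by_cases h0 : i = ⟨0, by omega⟩
  · rw [h0, Equiv.swap_apply_left]
    rfl
  · by_cases h2 : i = ⟨2, by omega⟩
    · rw [h2, Equiv.swap_apply_right]
      rfl
    · rw [Equiv.swap_apply_of_ne_of_ne h0 h2]
      have h0' : i.val ≠ 0 := fun h => h0 (Fin.ext h)
      have h2' : i.val ≠ 2 := fun h => h2 (Fin.ext h)
      by_cases h3 : 3 ≤ i.val
      · rw [comp_big _ _ _ h3, comp_big _ _ _ h3]
      · have h4 : i = ⟨1, by omega⟩ := Fin.ext (by
          change i.val = 1
          omega)
        rw [h4]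
        rfl

variable {X : Type*} [MulAction (SpecialLinearGroup (Fin n) F) X] [Finite X]
  [IsPretransitive (SpecialLinearGroup (Fin n) F) X]

theorem red (hn : 5 ≤ n) (x : X) (h3 : nOrb (stabilizer (SpecialLinearGroup (Fin n) F) x) X = 3)
    (hmax : IsCoatom (stabilizer (SpecialLinearGroup (Fin n) F) x)) {U : Submodule F (Vec F n)} (hU0 : U ≠ ⊥)
    (hU1 : U ≠ ⊤) (hU : ∀ h ∈ stabilizer (SpecialLinearGroup (Fin n) F) x, h • U = U) :
    Nat.card X = Nat.card (Co F (comp n [2, 0, n - 2])) := by
  classical
  have hmpos : 0 < finrank F U := by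
    rw [Nat.pos_iff_ne_zero]
    intro h
    exact hU0 (Submodule.finrank_eq_zero.1 h)
  have hmlt : finrank F U < n := by
    have := Submodule.finrank_lt hU1
    rwa [finrank_vec] at this
  have hV : finrank F (Vec F n) = n := finrank_vec
  by_cases hm : 2 ≤ finrank F U ∧ finrank F U + 2 ≤ n
  · -- three orbits on lines
    have hN2 : 3 ≤ nOrb (stabilizer (SpecialLinearGroup (Fin n) F) x) (Fl F (Vec F n) ![2]) := by
      have h4 := card_le_nOrb (G := stabilizer (SpecialLinearGroup (Fin n) F) x) (Y := Fl F (Vec F n) ![2])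
        (fun W => finrank F ↥(W.1 0 ⊓ U)) (by
          rintro ⟨g, hg⟩ W
          have e1 : ((⟨g, hg⟩ : stabilizer (SpecialLinearGroup (Fin n) F) x) • W).1 0 = g • W.1 0 := rfl
          change finrank F ↥(((⟨g, hg⟩ : stabilizer (SpecialLinearGroup (Fin n) F) x) • W).1 0 ⊓ U) = _
          rw [e1]
          conv_lhs => rw [← hU g hg, ← act_inf, Flags.finrank_smul]) {0, 1, 2} ?_
      · exact h4
      · intro t ht
        -- a line meeting `U` in dimension `t`
        obtain ⟨A, hA1, hA3, hA2⟩ := exists_finrank_between (bot_le : ⊥ ≤ U) t (by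
          rw [finrank_bot]
          simp only [mem_insert, mem_singleton] at ht
          omega)
        rw [finrank_bot, zero_add] at hA2
        -- `B ≥ U` of dimension `m + 2 - t`, then a complement
        have ht2 : t ≤ 2 := by
          simp only [mem_insert, mem_singleton] at ht
          omega
        obtain ⟨C, hC⟩ := Submodule.exists_isCompl U
        have hCf : finrank F C = n - finrank F U := by
          have := Submodule.finrank_add_eq_of_isCompl hC
          omega
        obtain ⟨B, hB1, hB3, hB2⟩ := exists_finrank_between (bot_le : ⊥ ≤ C) (2 - t) (by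
          rw [finrank_bot]
          omega)
        rw [finrank_bot, zero_add] at hB2
        have hAB : A ⊓ B = ⊥ := by
          rw [eq_bot_iff, ← hC.inf_eq_bot]
          exact inf_le_inf hA3 hB3
        have hf := Submodule.finrank_sup_add_finrank_inf_eq A B
        rw [hAB, finrank_bot, hA2, hB2] at hf
        refine ⟨Geo3.ln (A ⊔ B) (by omega), ?_⟩
        change finrank F ↥((A ⊔ B) ⊓ U) = t
        have h5 : (A ⊔ B) ⊓ U = A := by
          rw [sup_inf_assoc_of_le B hA3]
          have : B ⊓ U = ⊥ := by
            rw [eq_bot_iff, ← hC.inf_eq_bot, inf_comm]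
            exact inf_le_inf_left _ hB3
          rw [this, sup_bot_eq]
        rw [h5, hA2]
    rcases spectrum hn x h3 with h | ⟨h, _⟩ | ⟨_, h, _⟩ | ⟨_, h, _⟩ | ⟨_, h⟩
    · exact h
    all_goals omega
  · exfalso
    -- the stabiliser of `U`
    set m := finrank F U with hmdef
    let W0 : Fl F (Vec F n) ![m] := ⟨fun _ => U, fun _ _ _ => le_rfl, fun i => by fin_cases i; rfl⟩
    have M := mm (n := n) (by omega) hmlt.le
    have : IsPretransitive (SpecialLinearGroup (Fin n) F) (Fl F (Vec F n) ![m]) :=
      ⟨sl_fl_transitive (by omega) M⟩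
    have hle : stabilizer (SpecialLinearGroup (Fin n) F) x ≤ stabilizer (SpecialLinearGroup (Fin n) F) W0 := by
      intro g hg
      rw [mem_stabilizer_iff]
      apply Subtype.ext
      funext i
      exact hU g hg
    have hne : stabilizer (SpecialLinearGroup (Fin n) F) W0 ≠ ⊤ := by
      intro htop
      -- another subspace of the same dimension
      obtain ⟨v, hv⟩ : ∃ v, v ∉ U := by
        by_contra hcon
        push Not at hcon
        exact hU1 (eq_top_iff.2 fun v _ => hcon v)
      obtain ⟨B, hB1, hB2⟩ := exists_finrank (Submodule.span F {v}) (m - 1) (by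
        rw [finrank_span_singleton (fun h => hv (by rw [h]; exact zero_mem _)), hV]
        omega)
      rw [finrank_span_singleton (fun h => hv (by rw [h]; exact zero_mem _))] at hB2
      let W1 : Fl F (Vec F n) ![m] := ⟨fun _ => B, fun _ _ _ => le_rfl, fun i => by
        fin_cases i
        change finrank F B = m
        omega⟩
      obtain ⟨g, hg⟩ := sl_fl_transitive (by omega) M W0 W1
      have h5 : g • W0 = W0 := by
        rw [← mem_stabilizer_iff, htop]
        exact Subgroup.mem_top _
      rw [h5] at hg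
      have h6 : U = B := congrArg (fun W => W.1 0) hg
      apply hv
      rw [h6]
      exact hB1 (Submodule.mem_span_singleton_self v)
    have heq : stabilizer (SpecialLinearGroup (Fin n) F) x = stabilizer (SpecialLinearGroup (Fin n) F) W0 := by
      by_contra hcon
      exact hne (hmax.2 _ (lt_of_le_of_ne hle hcon))
    have hpc := pc_eq_of_stabilizer x W0 heq
    rw [← theta_eq M] at hpc
    have hpc' : pc (SpecialLinearGroup (Fin n) F) X = t1 F n := by
      have hm' : m = 1 ∨ m = n - 1 := by omega
      rcases hm' with h | h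
      · rw [hpc, h]
        rfl
      · rw [hpc, h, show n - (n - 1) = 1 by omega, theta_swap (by omega)]
    have h5 : ip (pc (SpecialLinearGroup (Fin n) F) X) (pc (SpecialLinearGroup (Fin n) F) X) = 3 := by
      rw [ip_pc, card_orbits_prod x, h3]
      norm_num
    rw [hpc', (table hn).e1_1] at h5
    norm_num at h5

end Cfsg.Agent.H87.Red
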