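import Cfsg.Agent.H87.Types
import Cfsg.Agent.H87.Uni

/-!
# The spectrum of a rank 3 permutation character of `SL_n(q)`

`spectrum` : for a transitive action of rank 3 of `SL_n(q)`, `n ≥ 5`, the numbers of orbits of a point stabiliser on
the flags of small types.
-/

set_option autoImplicit false
set_option linter.unusedSectionVars false

namespace Cfsg.Agent.H87.Spectrum

open scoped MatrixGroups
open Finset MulAction Matrix Module Cfsg.Agent.H87.Orb Cfsg.Agent.H87.SLInner Cfsg.Agent.H87.Flags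
open Cfsg.Agent.H139.BlockCount Cfsg.Agent.H87.FlagsGL Cfsg.Agent.H87.MargCount Cfsg.Agent.H87.Types

variable {F : Type*} [Field F] {n : ℕ}

theorem ip_pc_one {G : Type*} [Group G] [Fintype G] (Y : Type*) [MulAction G Y] [Finite Y] :
    ip (pc G Y) (fun _ => 1) = (nOrb G Y : ℝ) := by
  classical
  have : Fintype Y := Fintype.ofFinite _
  have h2 := sum_card_fixedBy_eq_card_orbits_mul_card_group G Y
  have h1 : ∀ g : G, pc G Y g * 1 = (Fintype.card (fixedBy Y g) : ℝ) := by
    intro g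
    rw [pc, mul_one, Nat.card_eq_fintype_card]
  rw [ip, Finset.sum_congr rfl (fun g _ => h1 g), ← Nat.cast_sum, h2, Nat.cast_mul, nOrb, ← Nat.card_eq_fintype_card,
    ← Nat.card_eq_fintype_card, mul_comm, mul_assoc, mul_inv_cancel₀, mul_one]
  rw [Nat.cast_ne_zero]
  exact Nat.card_pos.ne'

/-- `SL_n` is transitive on the cosets. -/
theorem sl_transitive (hn : 0 < n) (a : Fin n → ℕ) (y y' : Co F a) :
    ∃ g : SpecialLinearGroup (Fin n) F, g • y = y' := by
  obtain ⟨g, hg⟩ := exists_smul_eq (GL (Fin n) F) y y'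
  obtain ⟨s, hs1, hs2⟩ := exists_det hn a a (y, y) (g.det)
  have hdet : ((g * s⁻¹ : GL (Fin n) F) : Matrix (Fin n) (Fin n) F).det = 1 := by
    have h1 : (g * s⁻¹).det = 1 := by
      rw [map_mul, map_inv, hs1, mul_inv_cancel]
    have h2 := congrArg Units.val h1
    rwa [GeneralLinearGroup.val_det_apply] at h2
  refine ⟨⟨((g * s⁻¹ : GL (Fin n) F) : Matrix (Fin n) (Fin n) F), hdet⟩, ?_⟩
  have h3 : (SpecialLinearGroup.toGL ⟨((g * s⁻¹ : GL (Fin n) F) : Matrix (Fin n) (Fin n) F), hdet⟩ :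
      GL (Fin n) F) = g * s⁻¹ := by
    apply Units.ext
    rfl
  change (SpecialLinearGroup.toGL ⟨((g * s⁻¹ : GL (Fin n) F) : Matrix (Fin n) (Fin n) F), hdet⟩ :
      GL (Fin n) F) • y = y'
  rw [h3, mul_smul]
  have h4 : s⁻¹ • y = y := by
    rw [inv_smul_eq_iff]
    exact (congrArg Prod.fst hs2).symm
  rw [h4]
  exact hg

/-- `q`-integers. -/
def qi (q m : ℕ) : ℕ := ∑ l ∈ range m, q ^ l

/-- `q`-factorials. -/
def fac (q m : ℕ) : ℕ := ∏ j ∈ range m, qi q (j + 1)

theorem qi_mul (q m : ℕ) (hq : 1 ≤ q) : qi q m * (q - 1) + 1 = q ^ m := by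
  induction m with
  | zero => simp [qi]
  | succ m ih =>
    rw [qi, sum_range_succ, add_mul]
    change qi q m * (q - 1) + q ^ m * (q - 1) + 1 = q ^ (m + 1)
    obtain ⟨k, rfl⟩ : ∃ k, q = k + 1 := ⟨q - 1, by omega⟩
    simp only [Nat.add_sub_cancel] at ih ⊢
    rw [pow_succ]
    nlinarith

theorem qi_mul' (q m : ℕ) (hq : 1 ≤ q) : qi q m * (q - 1) = q ^ m - 1 := by
  have := qi_mul q m hq
  omega

theorem fac_pos (q m : ℕ) (hq : 1 ≤ q) : 0 < fac q m :=
  Finset.prod_pos fun j _ => Finset.sum_pos (fun _ _ => pow_pos (by omega) _) ⟨0, by simp⟩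

theorem card_Co [Fintype F] (hn : 3 ≤ n) (a b c : ℕ) (h : a + b + c = n) :
    Nat.card (Co F (comp n [a, b, c])) * (fac (Fintype.card F) a * fac (Fintype.card F) b * fac (Fintype.card F) c) =
      fac (Fintype.card F) n := by
  have hsum : ∑ i, comp n [a, b, c] i = n := by
    rw [sum_three hn]
    · exact h
    · intro j hj
      exact comp_big _ _ _ hj
  have h1 := index_parabolicGL (F := F) rfl (comp n [a, b, c]) hsum
  refine Eq.trans ?_ h1
  congr 1
  obtain ⟨k, rfl⟩ : ∃ k, n = k + 3 := ⟨n - 3, by omega⟩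
  rw [Fin.prod_univ_succ, Fin.prod_univ_succ, Fin.prod_univ_succ]
  have : ∏ i : Fin k, ∏ j ∈ range (comp (k + 3) [a, b, c] i.succ.succ.succ), ∑ l ∈ range (j + 1), Fintype.card F ^ l = 1 := by
    apply prod_eq_one
    intro i _
    rw [comp_big _ _ _ (by simp)]
    simp
  rw [this, mul_one, ← mul_assoc]
  rfl

/-- number of points. -/
theorem card_t1 [Fintype F] (hn : 5 ≤ n) :
    Nat.card (Co F (comp n [1, 0, n - 1])) * (Fintype.card F - 1) = Fintype.card F ^ n - 1 := by
  have hq1 : 1 < Fintype.card F := Fintype.one_lt_card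
  have h1 := card_Co (F := F) (n := n) (by omega) 1 0 (n - 1) (by omega)
  obtain ⟨k, rfl⟩ : ∃ k, n = k + 1 := ⟨n - 1, by omega⟩
  simp only [Nat.add_sub_cancel] at h1 ⊢
  have e1 : fac (Fintype.card F) 1 = 1 := by simp [fac, qi]
  have e0 : fac (Fintype.card F) 0 = 1 := by simp [fac]
  have e2 : fac (Fintype.card F) (k + 1) = qi (Fintype.card F) (k + 1) * fac (Fintype.card F) k := by
    rw [fac, prod_range_succ, mul_comm]
    rfl
  rw [e1, e0, e2, one_mul, one_mul] at h1
  rw [Nat.eq_of_mul_eq_mul_right (fac_pos _ _ hq1.le) h1, qi_mul' _ _ hq1.le]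

/-- number of lines. -/
theorem card_t2 [Fintype F] (hn : 5 ≤ n) :
    Nat.card (Co F (comp n [2, 0, n - 2])) * ((Fintype.card F ^ 2 - 1) * (Fintype.card F - 1)) =
      (Fintype.card F ^ n - 1) * (Fintype.card F ^ (n - 1) - 1) := by
  have hq1 : 1 < Fintype.card F := Fintype.one_lt_card
  have h1 := card_Co (F := F) (n := n) (by omega) 2 0 (n - 2) (by omega)
  obtain ⟨k, rfl⟩ : ∃ k, n = k + 2 := ⟨n - 2, by omega⟩
  simp only [Nat.add_sub_cancel] at h1 ⊢
  have e1 : fac (Fintype.card F) 2 = qi (Fintype.card F) 2 := by simp [fac, qi, prod_range_succ, sum_range_succ]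
  have e0 : fac (Fintype.card F) 0 = 1 := by simp [fac]
  have e2 : fac (Fintype.card F) (k + 2) =
      (qi (Fintype.card F) (k + 2) * qi (Fintype.card F) (k + 1)) * fac (Fintype.card F) k := by
    rw [fac, prod_range_succ, prod_range_succ]
    change fac (Fintype.card F) k * qi (Fintype.card F) (k + 1) * qi (Fintype.card F) (k + 2) = _
    ring
  rw [e1, e0, e2, mul_one, ← mul_assoc] at h1
  have h2 := Nat.eq_of_mul_eq_mul_right (fac_pos _ _ hq1.le) h1
  rw [show k + 2 - 1 = k + 1 by omega, ← qi_mul' _ _ hq1.le, ← qi_mul' _ _ hq1.le, ← qi_mul' _ _ hq1.le]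
  calc _ = (Nat.card (Co F (comp (k + 2) [2, 0, k])) * qi (Fintype.card F) 2) *
        ((Fintype.card F - 1) * (Fintype.card F - 1)) := by ring
    _ = _ := by rw [h2]; ring

theorem two_t1_le [Fintype F] (hn : 5 ≤ n) :
    2 * Nat.card (Co F (comp n [1, 0, n - 1])) < Nat.card (Co F (comp n [2, 0, n - 2])) := by
  have hq1 : 1 < Fintype.card F := Fintype.one_lt_card
  have h1 := card_t1 (F := F) hn
  have h2 := card_t2 (F := F) hn
  set q := Fintype.card F with hq
  set A := Nat.card (Co F (comp n [1, 0, n - 1])) with hA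
  set B := Nat.card (Co F (comp n [2, 0, n - 2])) with hB
  rw [← h1] at h2
  have h3 : B * (q ^ 2 - 1) = A * (q ^ (n - 1) - 1) := by
    have : (B * (q ^ 2 - 1)) * (q - 1) = (A * (q ^ (n - 1) - 1)) * (q - 1) := by
      linarith [h2]
    exact Nat.eq_of_mul_eq_mul_right (by omega) this
  have hA0 : 0 < A := Nat.card_pos
  have h4 : q ^ 4 ≤ q ^ (n - 1) := Nat.pow_le_pow_right (by omega) (by omega)
  have h5 : q ^ 4 = q ^ 2 * q ^ 2 := by ring
  have h6 : 2 * 2 ≤ q ^ 2 := by nlinarith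
  have h7 : 2 * (q ^ 2 - 1) < q ^ (n - 1) - 1 := by
    have : 4 * q ^ 2 ≤ q ^ 4 := by rw [h5]; exact Nat.mul_le_mul_right _ (by omega)
    omega
  by_contra hcon
  rw [not_lt] at hcon
  have h8 : B * (q ^ 2 - 1) ≤ (2 * A) * (q ^ 2 - 1) := Nat.mul_le_mul_right _ hcon
  have h9 : (2 * A) * (q ^ 2 - 1) < A * (q ^ (n - 1) - 1) := by
    calc (2 * A) * (q ^ 2 - 1) = A * (2 * (q ^ 2 - 1)) := by ring
      _ < A * (q ^ (n - 1) - 1) := Nat.mul_lt_mul_of_pos_left h7 hA0
  omega

variable [Fintype F] [Fintype (SpecialLinearGroup (Fin n) F)]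

/-- the principal character. -/
noncomputable def o (F : Type*) [Field F] (n : ℕ) : SpecialLinearGroup (Fin n) F → ℝ := fun _ => 1

theorem ip_oo : ip (o F n) (o F n) = 1 := by
  unfold ip o
  rw [sum_congr rfl (fun x _ => mul_one (1 : ℝ)), sum_const, card_univ, nsmul_eq_mul, mul_one]
  apply inv_mul_cancel₀
  rw [Nat.cast_ne_zero]
  exact Fintype.card_ne_zero

theorem ip_theta_o (hn : 0 < n) (a : Fin n → ℕ) : ip (theta F a) (o F n) = 1 := by
  have h1 := ip_pc_one (G := SpecialLinearGroup (Fin n) F) (Co F a)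
  have : IsPretransitive (SpecialLinearGroup (Fin n) F) (Co F a) := ⟨sl_transitive hn a⟩
  rw [nOrb_eq_one, Nat.cast_one] at h1
  exact h1

section main

variable {X : Type*} [MulAction (SpecialLinearGroup (Fin n) F) X] [Finite X]
  [IsPretransitive (SpecialLinearGroup (Fin n) F) X]

/-- inner products with flag characters count orbits on flags. -/
theorem ip_x (x : X) {a : Fin n → ℕ} {k : ℕ} {d : Fin k → ℕ} (M : Matches a d) :
    ip (pc (SpecialLinearGroup (Fin n) F) X) (theta F a) =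
      (nOrb (stabilizer (SpecialLinearGroup (Fin n) F) x) (Fl F (Vec F n) d) : ℝ) := by
  rw [theta_eq M, ip_pc, card_orbits_prod x]

theorem ip_x_int (a : Fin n → ℕ) :
    ∃ z : ℤ, ip (pc (SpecialLinearGroup (Fin n) F) X) (theta F a) = z := by
  rw [theta, ip_pc]
  exact ⟨(nOrb (SpecialLinearGroup (Fin n) F) (X × Co F a) : ℤ), by push_cast; rfl⟩

theorem card_modEq_of {C : ℤ} {N A B : ℕ} {q : ℕ} (hA : A ≡ 1 [MOD q]) (hB : B ≡ 1 [MOD q])
    (h : (N : ℤ) = q * C + 1 + (B - A)) : N ≡ 1 [MOD q] := by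
  rw [← Int.natCast_modEq_iff] at hA hB ⊢
  have h1 : ((B : ℤ) - A) ≡ 0 [ZMOD q] := by
    have := hB.sub hA
    simpa using this
  rw [h]
  have h2 : (q : ℤ) * C + 1 + ((B : ℤ) - A) ≡ 0 + 1 + 0 [ZMOD q] := by
    refine Int.ModEq.add (Int.ModEq.add ?_ (Int.ModEq.refl 1)) h1
    exact (Int.modEq_zero_iff_dvd.2 (dvd_mul_right _ _))
  simpa using h2

/-- **The spectrum of a rank 3 permutation character.** -/
theorem spectrum (hn : 5 ≤ n) (x : X) (h3 : nOrb (stabilizer (SpecialLinearGroup (Fin n) F) x) X = 3) :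
    Nat.card X = Nat.card (Co F (comp n [2, 0, n - 2])) ∨
    (nOrb (stabilizer (SpecialLinearGroup (Fin n) F) x) (Fl F (Vec F n) ![2]) ≤ 2 ∧
      Nat.card X ≡ 1 [MOD Fintype.card F]) ∨
    (nOrb (stabilizer (SpecialLinearGroup (Fin n) F) x) (Fl F (Vec F n) ![1]) = 2 ∧
      nOrb (stabilizer (SpecialLinearGroup (Fin n) F) x) (Fl F (Vec F n) ![2]) = 2 ∧
      nOrb (stabilizer (SpecialLinearGroup (Fin n) F) x) (Fl F (Vec F n) ![1, 2]) ≤ 3) ∨
    (nOrb (stabilizer (SpecialLinearGroup (Fin n) F) x) (Fl F (Vec F n) ![1]) = 1 ∧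
      nOrb (stabilizer (SpecialLinearGroup (Fin n) F) x) (Fl F (Vec F n) ![2]) = 2 ∧
      nOrb (stabilizer (SpecialLinearGroup (Fin n) F) x) (Fl F (Vec F n) ![1, 3]) = 3 ∧
      nOrb (stabilizer (SpecialLinearGroup (Fin n) F) x) (Fl F (Vec F n) ![1, 2, 3]) = 4 ∧
      (6 ≤ n → nOrb (stabilizer (SpecialLinearGroup (Fin n) F) x) (Fl F (Vec F n) ![2, 4]) = 4)) ∨
    (nOrb (stabilizer (SpecialLinearGroup (Fin n) F) x) (Fl F (Vec F n) ![1]) = 1 ∧
      nOrb (stabilizer (SpecialLinearGroup (Fin n) F) x) (Fl F (Vec F n) ![2]) = 1) := by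
  classical
  have T := table (F := F) (n := n) hn
  set xx := pc (SpecialLinearGroup (Fin n) F) X with hxx
  have M1 := m1 (n := n) (by omega)
  have M2 := m2 (n := n) (by omega)
  have M12 := m12 (n := n) (by omega)
  have M13 := m13 (n := n) (by omega)
  have M24 := m24 (n := n) (by omega)
  have M123 := m123 (n := n) (by omega)
  set N1 := nOrb (stabilizer (SpecialLinearGroup (Fin n) F) x) (Fl F (Vec F n) ![1]) with hN1
  set N2 := nOrb (stabilizer (SpecialLinearGroup (Fin n) F) x) (Fl F (Vec F n) ![2]) with hN2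
  set N12 := nOrb (stabilizer (SpecialLinearGroup (Fin n) F) x) (Fl F (Vec F n) ![1, 2]) with hN12
  have x1 : ip xx (t1 F n) = N1 := ip_x x M1
  have x2 : ip xx (t2 F n) = N2 := ip_x x M2
  have x12 : ip xx (t12 F n) = N12 := ip_x x M12
  have x13 := ip_x (F := F) x M13
  have x24 := ip_x (F := F) x M24
  have x123 := ip_x (F := F) x M123
  have xo : ip xx (o F n) = 1 := by
    have : Nonempty X := ⟨x⟩
    have h1 := ip_pc_one (G := SpecialLinearGroup (Fin n) F) X
    rw [nOrb_eq_one, Nat.cast_one] at h1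
    exact h1
  have ox : ip (o F n) xx = 1 := by rw [ip_comm, xo]
  have xxx : ip xx xx = 3 := by
    rw [hxx, ip_pc, card_orbits_prod x, h3]
    norm_num
  have o1 : ip (t1 F n) (o F n) = 1 := ip_theta_o (by omega) _
  have o2 : ip (t2 F n) (o F n) = 1 := ip_theta_o (by omega) _
  have o12 : ip (t12 F n) (o F n) = 1 := ip_theta_o (by omega) _
  have o1' : ip (o F n) (t1 F n) = 1 := by rw [ip_comm, o1]
  have o2' : ip (o F n) (t2 F n) = 1 := by rw [ip_comm, o2]
  have o12' : ip (o F n) (t12 F n) = 1 := by rw [ip_comm, o12]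
  have x1' : ip (t1 F n) xx = N1 := by rw [ip_comm, x1]
  have x2' : ip (t2 F n) xx = N2 := by rw [ip_comm, x2]
  have x12' : ip (t12 F n) xx = N12 := by rw [ip_comm, x12]
  have e1_2 : ip (t1 F n) (t2 F n) = 2 := by rw [ip_comm, T.e2_1]
  have e1_12 : ip (t1 F n) (t12 F n) = 3 := by rw [ip_comm, T.e12_1]
  have e2_12 : ip (t2 F n) (t12 F n) = 4 := by rw [ip_comm, T.e12_2]
  have oo := ip_oo (F := F) (n := n)
  -- Bessel
  have hN1pos : 1 ≤ N1 := by
    have : Nonempty (Fl F (Vec F n) ![1]) := ⟨std ![1] M1.mono M1.le⟩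
    exact nOrb_pos
  have hN2pos : 1 ≤ N2 := by
    have : Nonempty (Fl F (Vec F n) ![2]) := ⟨std ![2] M2.mono M2.le⟩
    exact nOrb_pos
  have bess : ((N1 : ℝ) - 1) ^ 2 + ((N2 : ℝ) - N1) ^ 2 + ((N12 : ℝ) - N1 - N2 + 1) ^ 2 ≤ 2 := by
    have h1 := ip_self_nonneg (xx - o F n - ((N1 : ℝ) - 1) • (t1 F n - o F n) - ((N2 : ℝ) - N1) • (t2 F n - t1 F n) -
      ((N12 : ℝ) - N1 - N2 + 1) • (t12 F n - t1 F n - t2 F n + o F n))
    have h2 : ip (xx - o F n - ((N1 : ℝ) - 1) • (t1 F n - o F n) - ((N2 : ℝ) - N1) • (t2 F n - t1 F n) -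
        ((N12 : ℝ) - N1 - N2 + 1) • (t12 F n - t1 F n - t2 F n + o F n))
        (xx - o F n - ((N1 : ℝ) - 1) • (t1 F n - o F n) - ((N2 : ℝ) - N1) • (t2 F n - t1 F n) -
        ((N12 : ℝ) - N1 - N2 + 1) • (t12 F n - t1 F n - t2 F n + o F n)) =
        2 - (((N1 : ℝ) - 1) ^ 2 + ((N2 : ℝ) - N1) ^ 2 + ((N12 : ℝ) - N1 - N2 + 1) ^ 2) := by
      simp only [ip_sub_left, ip_sub_right, ip_add_left, ip_add_right, ip_smul_left, ip_smul_right, xxx, xo, ox, x1,
        x1', x2, x2', x12, x12', o1, o2, o12, o1', o2', o12', oo, T.e1_1, T.e2_1, T.e2_2, T.e12_1, T.e12_2, T.e12_12,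
        e1_2, e1_12, e2_12]
      ring
    rw [h2] at h1
    linarith
  have bessZ : ((N1 : ℤ) - 1) ^ 2 + ((N2 : ℤ) - N1) ^ 2 + ((N12 : ℤ) - N1 - N2 + 1) ^ 2 ≤ 2 := by exact_mod_cast bess
  -- values at `1`
  set A := Nat.card (Co F (comp n [1, 0, n - 1])) with hA
  set B := Nat.card (Co F (comp n [2, 0, n - 2])) with hB
  have v1 : t1 F n 1 = A := Uni.theta_one _
  have v2 : t2 F n 1 = B := Uni.theta_one _
  have v12 : t12 F n 1 = Nat.card (Co F (comp n [1, 1, n - 2])) := Uni.theta_one _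
  have vx : xx 1 = Nat.card X := pc_one X
  have vo : o F n 1 = 1 := rfl
  have hAm : A ≡ 1 [MOD Fintype.card F] := Uni.card_Co_modEq M1.sum
  have hBm : B ≡ 1 [MOD Fintype.card F] := Uni.card_Co_modEq M2.sum
  have hCm : Nat.card (Co F (comp n [1, 1, n - 2])) ≡ 1 [MOD Fintype.card F] := Uni.card_Co_modEq M12.sum
  have hr : (N1 : ℤ) = 1 ∨ (N1 : ℤ) = 2 := by
    have h1 : ((N1 : ℤ) - 1) ^ 2 ≤ 2 := by nlinarith [sq_nonneg ((N2 : ℤ) - N1), sq_nonneg ((N12 : ℤ) - N1 - N2 + 1)]
    have h2 : (N1 : ℤ) < 3 := by nlinarith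
    omega
  have hs : (N2 : ℤ) - N1 = -1 ∨ (N2 : ℤ) - N1 = 0 ∨ (N2 : ℤ) - N1 = 1 := by
    have h1 : ((N2 : ℤ) - N1) ^ 2 ≤ 2 := by nlinarith [sq_nonneg ((N1 : ℤ) - 1), sq_nonneg ((N12 : ℤ) - N1 - N2 + 1)]
    have h2 : (N2 : ℤ) - N1 < 2 := by nlinarith
    have h3 : -2 < (N2 : ℤ) - N1 := by nlinarith
    omega
  rcases hr with hr | hr
  · rcases hs with hs | hs | hs
    · exfalso
      omega
    · -- point- and line-transitive
      right; right; right; right
      omega
    · -- `ρ` not a constituent, `σ` a constituent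
      have hN1' : N1 = 1 := by omega
      have hN2' : N2 = 2 := by omega
      set y := xx - o F n - (t2 F n - t1 F n) with hy
      have hyy : ip y y = 1 := by
        rw [hy]
        simp only [ip_sub_left, ip_sub_right, xxx, xo, ox, x1, x1', x2, x2', o1, o2, o1', o2', oo, T.e1_1, T.e2_1,
          T.e2_2, e1_2, hN1', hN2']
        norm_num
      have hyo : ip y (fun _ => 1) = 0 := by
        change ip y (o F n) = 0
        rw [hy]
        simp only [ip_sub_left, xo, o1, o2, oo]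
        norm_num
      have hval : ∀ a : Fin n → ℕ, ∑ i, a i = n → ip y (theta F a) = ip xx (theta F a) - 1 -
          (ip (theta F a) (t2 F n) - ip (theta F a) (t1 F n)) := by
        intro a ha
        rw [hy]
        simp only [ip_sub_left]
        rw [ip_comm (o F n), ip_theta_o (by omega), ip_comm (t2 F n), ip_comm (t1 F n)]
      have hint : ∀ a : Fin n → ℕ, ∑ i, a i = n → ∃ z : ℤ, ip y (theta F a) = z := by
        intro a ha
        obtain ⟨z, hz⟩ := ip_x_int (F := F) (X := X) a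
        rw [hval a ha, t1, t2, ip_theta (by omega) _ _ ha M2.sum, ip_theta (by omega) _ _ ha M1.sum]
        refine ⟨z - 1 - ((Nat.card (Cfsg.Agent.H139.Young.Marg a (comp n [2, 0, n - 2])) : ℤ) -
          (Nat.card (Cfsg.Agent.H139.Young.Marg a (comp n [1, 0, n - 1])) : ℤ)), ?_⟩
        rw [hxx, hz]
        push_cast
        ring
      by_cases hall : ∀ a : Fin n → ℕ, ∑ i, a i = n → ip y (theta F a) = 0
      · right; right; right; left
        have h13 := hval _ M13.sum
        rw [hall _ M13.sum, hxx, x13] at h13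
        have h123 := hval _ M123.sum
        rw [hall _ M123.sum, hxx, x123] at h123
        have h24 := hval _ M24.sum
        rw [hall _ M24.sum, hxx, x24] at h24
        have k1 : ip (theta F (comp n [1, 2, n - 3])) (t2 F n) = 5 := T.e13_2
        have k2 : ip (theta F (comp n [1, 2, n - 3])) (t1 F n) = 3 := T.e13_1
        have k3 : ip (theta F (comp n [1, 1, 1, n - 3])) (t2 F n) = 7 := T.e123_2
        have k4 : ip (theta F (comp n [1, 1, 1, n - 3])) (t1 F n) = 4 := T.e123_1
        have k5 : ip (theta F (comp n [2, 2, n - 4])) (t1 F n) = 3 := T.e24_1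
        rw [k1, k2] at h13
        rw [k3, k4] at h123
        refine ⟨hN1', hN2', ?_, ?_, ?_⟩
        · have : (nOrb (stabilizer (SpecialLinearGroup (Fin n) F) x) (Fl F (Vec F n) ![1, 3]) : ℝ) = 3 := by linarith
          exact_mod_cast this
        · have : (nOrb (stabilizer (SpecialLinearGroup (Fin n) F) x) (Fl F (Vec F n) ![1, 2, 3]) : ℝ) = 4 := by
            linarith
          exact_mod_cast this
        · intro h6
          have k6 : ip (theta F (comp n [2, 2, n - 4])) (t2 F n) = 6 := T.e24_2 h6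
          rw [k5, k6] at h24
          have : (nOrb (stabilizer (SpecialLinearGroup (Fin n) F) x) (Fl F (Vec F n) ![2, 4]) : ℝ) = 4 := by
            linarith
          exact_mod_cast this
      · right; left
        push Not at hall
        obtain ⟨a, ha, hne⟩ := hall
        obtain ⟨z, hz⟩ := Uni.dvd_degree (by omega) y hyy hint hyo a ha hne
        refine ⟨by omega, card_modEq_of (C := z) hAm hBm ?_⟩
        have h1 : y 1 = Nat.card X - 1 - ((B : ℝ) - A) := by
          rw [hy]
          simp only [Pi.sub_apply, vx, vo, v1, v2]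
        rw [h1] at hz
        have h2 : (Nat.card X : ℝ) = (Fintype.card F : ℝ) * z + 1 + ((B : ℝ) - A) := by linarith
        exact_mod_cast h2
  · rcases hs with hs | hs | hs
    · exfalso
      have hN1' : N1 = 2 := by omega
      have hN2' : N2 = 1 := by omega
      have h1 : ip (xx - o F n - (t1 F n - o F n) + (t2 F n - t1 F n))
          (xx - o F n - (t1 F n - o F n) + (t2 F n - t1 F n)) = 0 := by
        simp only [ip_sub_left, ip_sub_right, ip_add_left, ip_add_right, xxx, xo, ox, x1, x1', x2, x2', o1, o2, o1',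
          o2', oo, T.e1_1, T.e2_1, T.e2_2, e1_2, hN1', hN2']
        norm_num
      have h2 := congrFun (ip_self_eq_zero h1) 1
      simp only [Pi.sub_apply, Pi.add_apply, vx, vo, v1, v2, Pi.zero_apply] at h2
      have h3 : (Nat.card X : ℝ) + B = 2 * A := by linarith
      have h4 : Nat.card X + B = 2 * A := by exact_mod_cast h3
      have h5 := two_t1_le (F := F) hn
      rw [← hA, ← hB] at h5
      omega
    · have hN1' : N1 = 2 := by omega
      have hN2' : N2 = 2 := by omega
      have ht : (N12 : ℤ) ≤ 4 := by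
        have h1 : ((N12 : ℤ) - 3) ^ 2 ≤ 1 := by
          have e : ((N12 : ℤ) - N1 - N2 + 1) = (N12 : ℤ) - 3 := by omega
          rw [← e]
          have e2 : ((N1 : ℤ) - 1) ^ 2 = 1 := by rw [hr]; norm_num
          have e3 := sq_nonneg ((N2 : ℤ) - N1)
          linarith
        have h2 := (abs_le.1 ((sq_le_one_iff_abs_le_one _).1 h1)).2
        omega
      rcases Nat.lt_or_ge N12 4 with h4 | h4
      · right; right; left
        exact ⟨hN1', hN2', by omega⟩
      · right; left
        have hN12' : N12 = 4 := by omega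
        have h1 : ip (xx - o F n - (t1 F n - o F n) - (t12 F n - t1 F n - t2 F n + o F n))
            (xx - o F n - (t1 F n - o F n) - (t12 F n - t1 F n - t2 F n + o F n)) = 0 := by
          simp only [ip_sub_left, ip_sub_right, ip_add_left, ip_add_right, xxx, xo, ox, x1, x1', x2, x2', x12, x12',
            o1, o2, o12, o1', o2', o12', oo, T.e1_1, T.e2_1, T.e2_2, T.e12_1, T.e12_2, T.e12_12, e1_2, e1_12, e2_12,
            hN1', hN2', hN12']
          norm_num
        have h2 := congrFun (ip_self_eq_zero h1) 1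
        simp only [Pi.sub_apply, Pi.add_apply, vx, vo, v1, v2, v12, Pi.zero_apply] at h2
        refine ⟨by omega, card_modEq_of (C := 0) hBm hCm ?_⟩
        have h3 : (Nat.card X : ℝ) = 1 + ((Nat.card (Co F (comp n [1, 1, n - 2])) : ℝ) - B) := by linarith
        have h4 : (Nat.card X : ℤ) = 1 + ((Nat.card (Co F (comp n [1, 1, n - 2])) : ℤ) - B) := by exact_mod_cast h3
        rw [h4]
        ring
    · left
      have hN1' : N1 = 2 := by omega
      have hN2' : N2 = 3 := by omega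
      have h1 : ip (xx - o F n - (t1 F n - o F n) - (t2 F n - t1 F n))
          (xx - o F n - (t1 F n - o F n) - (t2 F n - t1 F n)) = 0 := by
        simp only [ip_sub_left, ip_sub_right, xxx, xo, ox, x1, x1', x2, x2', o1, o2, o1', o2', oo, T.e1_1, T.e2_1,
          T.e2_2, e1_2, hN1', hN2']
        norm_num
      have h2 := congrFun (ip_self_eq_zero h1) 1
      simp only [Pi.sub_apply, vx, vo, v1, v2, Pi.zero_apply] at h2
      have h3 : (Nat.card X : ℝ) = B := by linarith
      exact_mod_cast h3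

end main

end Cfsg.Agent.H87.Spectrum
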