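import Cfsg.Agent.H87.FlagsGL
import Cfsg.Agent.H87.MargCount

/-!
# The flag types used for `SL_n(q)`

`m1`, `m2`, `m12`, `m13`, `m123`, `m24` : compositions and dimensions of flags; the table of inner products.
-/

set_option autoImplicit false
set_option linter.unusedSectionVars false

namespace Cfsg.Agent.H87.Types

open scoped MatrixGroups
open Finset MulAction Matrix Module Cfsg.Agent.H87.Orb Cfsg.Agent.H87.SLInner Cfsg.Agent.H87.Flags
open Cfsg.Agent.H139.BlockCount Cfsg.Agent.H87.FlagsGL Cfsg.Agent.H87.MargCount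

variable {F : Type*} [Field F] {n : ℕ}

theorem sum_take_succ' (l : List ℕ) (k : ℕ) : (l.take (k + 1)).sum = (l.take k).sum + l.getD k 0 := by
  rw [List.take_add_one, List.sum_append, List.getD_eq_getElem?_getD]
  congr 1
  cases l[k]? <;> simp

theorem psum_comp (l : List ℕ) {k : ℕ} (hk : k ≤ n) : psum (comp n l) k = (l.take k).sum := by
  induction k with
  | zero => simp [psum_zero]
  | succ k ih =>
    have h1 := psum_succ (comp n l) ⟨k, by omega⟩
    change psum (comp n l) (k + 1) = psum (comp n l) k + l.getD k 0 at h1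
    rw [h1, ih (by omega), sum_take_succ']

theorem matches_of (hn : 4 ≤ n) (l : List ℕ) (hl : l.length ≤ 4) (hs : l.sum = n) {k : ℕ} {d : Fin k → ℕ}
    (hd : Monotone d) (hle : ∀ i, d i ≤ n)
    (hleft : ∀ j ≤ 4, (l.take j).sum = 0 ∨ (l.take j).sum = n ∨ ∃ i, d i = (l.take j).sum)
    (hright : ∀ i, ∃ j ≤ 4, (l.take j).sum = d i) : Matches (comp n l) d where
  sum := by rw [sum_comp hn l hl, hs]
  mono := hd
  le := hle
  left := by
    intro j hj
    rw [psum_comp l hj]
    rcases Nat.lt_or_ge j 5 with h | h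
    · exact hleft j (by omega)
    · right; left
      rw [List.take_of_length_le (by omega), hs]
  right := by
    intro i
    obtain ⟨j, hj, e⟩ := hright i
    exact ⟨j, hj.trans hn, by rw [psum_comp l (hj.trans hn), e]⟩

theorem m1 (hn : 4 ≤ n) : Matches (comp n [1, 0, n - 1]) ![1] := by
  apply matches_of hn _ (by simp) (by simp; omega)
  · intro i j _; fin_cases i; fin_cases j; rfl
  · intro i; fin_cases i; simp; omega
  · intro j hj; interval_cases j <;> simp <;> omega
  · intro i; fin_cases i; exact ⟨1, by omega, by simp⟩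

theorem m2 (hn : 4 ≤ n) : Matches (comp n [2, 0, n - 2]) ![2] := by
  apply matches_of hn _ (by simp) (by simp; omega)
  · intro i j _; fin_cases i; fin_cases j; rfl
  · intro i; fin_cases i; simp; omega
  · intro j hj; interval_cases j <;> simp <;> omega
  · intro i; fin_cases i; exact ⟨1, by omega, by simp⟩

theorem m12 (hn : 4 ≤ n) : Matches (comp n [1, 1, n - 2]) ![1, 2] := by
  apply matches_of hn _ (by simp) (by simp; omega)
  · intro i j h; fin_cases i <;> fin_cases j <;> simp_all
  · intro i; fin_cases i <;> simp <;> omega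
  · intro j hj; interval_cases j <;> simp [Fin.exists_fin_two] <;> omega
  · intro i; fin_cases i
    · exact ⟨1, by omega, by simp⟩
    · exact ⟨2, by omega, by simp⟩

theorem m13 (hn : 4 ≤ n) : Matches (comp n [1, 2, n - 3]) ![1, 3] := by
  apply matches_of hn _ (by simp) (by simp; omega)
  · intro i j h; fin_cases i <;> fin_cases j <;> simp_all
  · intro i; fin_cases i <;> simp <;> omega
  · intro j hj; interval_cases j <;> simp [Fin.exists_fin_two] <;> omega
  · intro i; fin_cases i
    · exact ⟨1, by omega, by simp⟩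
    · exact ⟨2, by omega, by simp⟩

theorem m24 (hn : 4 ≤ n) : Matches (comp n [2, 2, n - 4]) ![2, 4] := by
  apply matches_of hn _ (by simp) (by simp; omega)
  · intro i j h; fin_cases i <;> fin_cases j <;> simp_all
  · intro i; fin_cases i <;> simp <;> omega
  · intro j hj; interval_cases j <;> simp [Fin.exists_fin_two] <;> omega
  · intro i; fin_cases i
    · exact ⟨1, by omega, by simp⟩
    · exact ⟨2, by omega, by simp⟩

theorem m123 (hn : 4 ≤ n) : Matches (comp n [1, 1, 1, n - 3]) ![1, 2, 3] := by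
  apply matches_of hn _ (by simp) (by simp; omega)
  · intro i j h; fin_cases i <;> fin_cases j <;> simp_all
  · intro i; fin_cases i <;> simp <;> omega
  · intro j hj; interval_cases j <;> simp [Fin.exists_fin_succ] <;> omega
  · intro i; fin_cases i
    · exact ⟨1, by omega, by simp⟩
    · exact ⟨2, by omega, by simp⟩
    · exact ⟨3, by omega, by simp⟩

variable (F n) in
/-- characters of points, lines and flags. -/
noncomputable def t1 : SpecialLinearGroup (Fin n) F → ℝ := theta F (comp n [1, 0, n - 1])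
variable (F n) in
noncomputable def t2 : SpecialLinearGroup (Fin n) F → ℝ := theta F (comp n [2, 0, n - 2])
variable (F n) in
noncomputable def t12 : SpecialLinearGroup (Fin n) F → ℝ := theta F (comp n [1, 1, n - 2])
variable (F n) in
noncomputable def t13 : SpecialLinearGroup (Fin n) F → ℝ := theta F (comp n [1, 2, n - 3])
variable (F n) in
noncomputable def t24 : SpecialLinearGroup (Fin n) F → ℝ := theta F (comp n [2, 2, n - 4])
variable (F n) in
noncomputable def t123 : SpecialLinearGroup (Fin n) F → ℝ := theta F (comp n [1, 1, 1, n - 3])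

variable [Fintype F] [Fintype (SpecialLinearGroup (Fin n) F)]

theorem ip_t1 (hn : 5 ≤ n) (l : List ℕ) (hl : l.length ≤ 4) (hs : l.sum = n) :
    ip (theta F (comp n l)) (t1 F n) = S1 l := by
  rw [t1, ip_theta (by omega) _ _ (by rw [sum_comp (by omega) l hl, hs]) (m1 (by omega)).sum, marg_one (by omega) l hl hs]

theorem ip_t2 (hn : 5 ≤ n) (l : List ℕ) (hl : l.length ≤ 4) (hs : l.sum = n) :
    ip (theta F (comp n l)) (t2 F n) = S2 l := by
  rw [t2, ip_theta (by omega) _ _ (by rw [sum_comp (by omega) l hl, hs]) (m2 (by omega)).sum, marg_two (by omega) l hl hs]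

theorem ip_t12 (hn : 5 ≤ n) (l : List ℕ) (hl : l.length ≤ 4) (hs : l.sum = n) :
    ip (theta F (comp n l)) (t12 F n) = S11 l := by
  rw [t12, ip_theta (by omega) _ _ (by rw [sum_comp (by omega) l hl, hs]) (m12 (by omega)).sum,
    marg_one_one (by omega) l hl hs]

/-- the table of inner products. -/
structure Table : Prop where
  e1_1 : ip (t1 F n) (t1 F n) = 2
  e2_1 : ip (t2 F n) (t1 F n) = 2
  e2_2 : ip (t2 F n) (t2 F n) = 3
  e12_1 : ip (t12 F n) (t1 F n) = 3
  e12_2 : ip (t12 F n) (t2 F n) = 4
  e12_12 : ip (t12 F n) (t12 F n) = 7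
  e13_1 : ip (t13 F n) (t1 F n) = 3
  e13_2 : ip (t13 F n) (t2 F n) = 5
  e123_1 : ip (t123 F n) (t1 F n) = 4
  e123_2 : ip (t123 F n) (t2 F n) = 7
  e24_1 : ip (t24 F n) (t1 F n) = 3
  e24_2 : 6 ≤ n → ip (t24 F n) (t2 F n) = 6

theorem table (hn : 5 ≤ n) : Table (F := F) (n := n) := by
  obtain ⟨k, rfl⟩ : ∃ k, n = k + 5 := ⟨n - 5, by omega⟩
  constructor
  · have h := ip_t1 (F := F) hn [1, 0, k + 5 - 1] (by simp) (by simp; omega)
    refine Eq.trans h ?_
    exact_mod_cast S1_1 (k + 3)
  · rw [t2, ip_t1 hn _ (by simp) (by simp; omega)]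
    exact_mod_cast S1_2 (k + 2)
  · have h := ip_t2 (F := F) hn [2, 0, k + 5 - 2] (by simp) (by simp; omega)
    refine Eq.trans h ?_
    exact_mod_cast S2_2 (k + 1)
  · rw [t12, ip_t1 hn _ (by simp) (by simp; omega)]
    exact_mod_cast S1_12 (k + 2)
  · rw [t12, ip_t2 hn _ (by simp) (by simp; omega)]
    exact_mod_cast S2_12 (k + 1)
  · have h := ip_t12 (F := F) hn [1, 1, k + 5 - 2] (by simp) (by simp; omega)
    refine Eq.trans h ?_
    exact_mod_cast S11_12 (k + 1)
  · rw [t13, ip_t1 hn _ (by simp) (by simp; omega)]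
    exact_mod_cast S1_13 (k + 1)
  · rw [t13, ip_t2 hn _ (by simp) (by simp; omega)]
    exact_mod_cast S2_13 k
  · rw [t123, ip_t1 hn _ (by simp) (by simp; omega)]
    exact_mod_cast S1_123 (k + 1)
  · rw [t123, ip_t2 hn _ (by simp) (by simp; omega)]
    exact_mod_cast S2_123 k
  · rw [t24, ip_t1 hn _ (by simp) (by simp; omega)]
    exact_mod_cast S1_24 k
  · intro h6
    obtain ⟨j, rfl⟩ : ∃ j, k = j + 1 := ⟨k - 1, by omega⟩
    rw [t24, ip_t2 hn _ (by simp) (by simp; omega)]
    exact_mod_cast S2_24 j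

end Cfsg.Agent.H87.Types
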